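import Cfsg.Agent.H80.Types.Split
import Cfsg.Agent.H80.Alt.Frame
import Cfsg.Agent.H80.M12.Frame

/-! The possible involution centralizers. -/

set_option autoImplicit false
set_option maxRecDepth 8000

namespace Cfsg.Agent.H80.Types

open Cfsg.Agent.H16

section

variable {G : Type*} [Group G] {s x g a b d e : G} {Q : Subgroup G} {sw : Bool} {eps : Nat}

theorem val_of_lt (P : Pairs s Q a b d e) (C : Core s Q x) {t : Nat} (ht : t < 32) :
    val s a b d e x g t = valQ s a b d e t := by
  rw [val, Nat.mod_eq_of_lt ht, show t / 32 % 3 = 0 by omega, show t / 96 = 0 by omega, pow_zero,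
    pow_zero, mul_one, mul_one]

theorem val_inj (S : Setup s Q x g) (P : Pairs s Q a b d e) (H : Gens sw eps s a b d e x g)
    {t u : Nat} (ht : t < 192) (hu : u < 192)
    (h : val s a b d e x g t = val s a b d e x g u) : t = u := by
  have C := S.core
  obtain ⟨n, p, hn, hp⟩ : ∃ n p : ℕ, n = t / 32 % 3 ∧ p = t / 96 := ⟨_, _, rfl, rfl⟩
  obtain ⟨m, o, hm, ho⟩ : ∃ m o : ℕ, m = u / 32 % 3 ∧ o = u / 96 := ⟨_, _, rfl, rfl⟩
  simp only [val, ← hn, ← hp, ← hm, ← ho] at h
  have hq := P.valQ_mem C (t % 32)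
  have hr := P.valQ_mem C (u % 32)
  have hgi : g⁻¹ = s ^ eps * g := by
    refine inv_eq_of_mul_eq_one_left ?_
    rw [mul_assoc, H.g_sq, ← (Commute.refl s).mul_pow, C.s_sq, one_pow]
  have key : x ^ m * g ^ o * (x ^ n * g ^ p)⁻¹ ∈ Q := by
    have : x ^ m * g ^ o * (x ^ n * g ^ p)⁻¹ =
        (valQ s a b d e (u % 32))⁻¹ * valQ s a b d e (t % 32) := by
      calc _ = (valQ s a b d e (u % 32))⁻¹ * (valQ s a b d e (u % 32) * x ^ m * g ^ o) *
            (x ^ n * g ^ p)⁻¹ := by group
        _ = _ := by rw [← h]; group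
    rw [this]
    exact Q.mul_mem (Q.inv_mem hr) hq
  have hx3 : x ^ 3 = 1 := by rw [pow_succ, pow_two, C.x_cube]
  have hpo : p = o := by
    by_contra hne
    rcases (show (p = 0 ∧ o = 1) ∨ (p = 1 ∧ o = 0) by omega) with ⟨rfl, rfl⟩ | ⟨rfl, rfl⟩
    · have hk : x ^ ((m + n) % 3) * g ^ 1 ∈ Q := by
        have hxn : g * (x ^ n)⁻¹ * g⁻¹ = x ^ n := by
          calc g * (x ^ n)⁻¹ * g⁻¹ = ((g * x * g⁻¹) ^ n)⁻¹ := by rw [conj_pow]; group
            _ = x ^ n := by rw [S.g_x, inv_pow, inv_inv]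
        have he : x ^ ((m + n) % 3) * g ^ 1 = x ^ m * g ^ 1 * (x ^ n * g ^ 0)⁻¹ := by
          rw [pow_one, pow_zero, mul_one, ← pow_eq_pow_mod (m + n) hx3, pow_add, mul_assoc, mul_assoc]
          congr 1
          exact (mul_inv_eq_iff_eq_mul.mp hxn).symm
        rw [he]
        exact key
      exact absurd (S.indep _ 1 (Nat.mod_lt _ (by norm_num)) (by norm_num) hk).2 (by norm_num)
    · have hk : x ^ ((n + m) % 3) * g ^ 1 ∈ Q := by
        have he : x ^ ((n + m) % 3) * g ^ 1 = s ^ eps * (x ^ m * g ^ 0 * (x ^ n * g ^ 1)⁻¹) := by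
          have hgm : x ^ m * g = g * (x ^ m)⁻¹ := by
            have : g * (x ^ m)⁻¹ * g⁻¹ = x ^ m := by
              calc g * (x ^ m)⁻¹ * g⁻¹ = ((g * x * g⁻¹) ^ m)⁻¹ := by rw [conj_pow]; group
                _ = x ^ m := by rw [S.g_x, inv_pow, inv_inv]
            exact (mul_inv_eq_iff_eq_mul.mp this).symm
          have hgn : g * (x ^ n)⁻¹ = x ^ n * g := by
            have : g * (x ^ n)⁻¹ * g⁻¹ = x ^ n := by
              calc g * (x ^ n)⁻¹ * g⁻¹ = ((g * x * g⁻¹) ^ n)⁻¹ := by rw [conj_pow]; group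
                _ = x ^ n := by rw [S.g_x, inv_pow, inv_inv]
            exact mul_inv_eq_iff_eq_mul.mp this
          have cs : ∀ k : ℕ, s ^ eps * x ^ k = x ^ k * s ^ eps := fun k =>
            (Commute.pow_pow (C.s_x : Commute s x) eps k).eq
          rw [pow_one, pow_zero, mul_one, mul_inv_rev, hgi, ← pow_eq_pow_mod (n + m) hx3,
            add_comm n m, pow_add, mul_assoc (s ^ eps) g, hgn]
          calc x ^ m * x ^ n * g
              = x ^ m * (s ^ eps * s ^ eps) * (x ^ n * g) := by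
                rw [← (Commute.refl s).mul_pow, C.s_sq, one_pow, mul_one, mul_assoc]
            _ = x ^ m * s ^ eps * (s ^ eps * (x ^ n * g)) := by simp only [mul_assoc]
            _ = _ := by rw [← cs m]; simp only [mul_assoc]
        rw [he]
        exact Q.mul_mem (Q.pow_mem C.s_mem eps) key
      exact absurd (S.indep _ 1 (Nat.mod_lt _ (by norm_num)) (by norm_num) hk).2 (by norm_num)
  subst hpo
  have hnm : n = m := by
    have hk : x ^ ((m + 2 * n) % 3) * g ^ 0 ∈ Q := by
      have he : x ^ ((m + 2 * n) % 3) * g ^ 0 = x ^ m * g ^ p * (x ^ n * g ^ p)⁻¹ := by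
        rw [pow_zero, mul_one, ← pow_eq_pow_mod (m + 2 * n) hx3, pow_add]
        have : (x ^ n)⁻¹ = x ^ (2 * n) := inv_eq_of_mul_eq_one_left (by
          rw [← pow_add, show 2 * n + n = 3 * n by ring, pow_mul, hx3, one_pow])
        rw [← this]
        group
      rw [he]
      exact key
    have := (S.indep _ 0 (Nat.mod_lt _ (by norm_num)) (by norm_num) hk).1
    omega
  subst hnm
  have hQ := P.valQ_inj C (Nat.mod_lt t (by norm_num : 32 > 0)) (Nat.mod_lt u (by norm_num : 32 > 0))
    (mul_right_cancel (mul_right_cancel h))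
  omega

theorem val_surj (S : Setup s Q x g) (P : Pairs s Q a b d e) {l : G} (hl : l * s = s * l) :
    ∃ t, t < 192 ∧ val s a b d e x g t = l := by
  obtain ⟨q, hq, n, p, hn, hp, rfl⟩ := S.dec l hl
  obtain ⟨c, hc, rfl⟩ := P.valQ_surj S.core hq
  refine ⟨c + 32 * n + 96 * p, by omega, ?_⟩
  rw [val, show (c + 32 * n + 96 * p) % 32 = c by omega,
    show (c + 32 * n + 96 * p) / 32 % 3 = n by omega, show (c + 32 * n + 96 * p) / 96 = p by omega]

theorem val_s (P : Pairs s Q a b d e) (C : Core s Q x) : val s a b d e x g 16 = s := by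
  rw [val_of_lt P C (by norm_num)]
  show unit a b 0 * unit d e 0 * s ^ 1 = s
  simp [unit]

/-- With a square root of the centre outside the core the centre cannot fuse into the core. -/
theorem no_fusion (S : Setup s Q x g) (P : Pairs s Q a b d e) (H : Gens sw 1 s a b d e x g)
    {h : G} (hhQ : h * s * h⁻¹ ∈ Q) (hhne : h * s * h⁻¹ ≠ s) : False := by
  classical
  have C := S.core
  let V : Nat → G := val s a b d e x g
  have Vmul : ∀ {u v}, u < 192 → v < 192 → V (mulC sw 1 u v) = V u * V v := fun hu hv =>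
    H.val_mul hu hv
  have Vinj : ∀ {u v}, u < 192 → v < 192 → V u = V v → u = v := fun hu hv => val_inj S P H hu hv
  have hs : V 16 = s := val_s P C
  have hV0 : V 0 = 1 := by
    show val s a b d e x g 0 = 1
    rw [val_of_lt P C (by norm_num)]
    show unit a b 0 * unit d e 0 * s ^ 0 = 1
    simp [unit]
  have comm_iff : ∀ {u v}, u < 192 → v < 192 →
      (commC sw 1 u v = true ↔ V u * V v = V v * V u) := fun {u v} hu hv => by
    rw [← Vmul hu hv, ← Vmul hv hu, commC]
    exact ⟨fun h => congrArg V (Nat.eq_of_beq_eq_true h),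
      fun h => Alt.beq_true (Vinj (mulC_lt hv) (mulC_lt hu) h)⟩
  have central : ∀ {t}, t < 192 → V t * s = s * V t := by
    intro t ht
    have hQs : valQ s a b d e (t % 32) * s = s * valQ s a b d e (t % 32) :=
      (C.s_comm _ (P.valQ_mem C _)).symm
    exact ((Commute.mul_left (Commute.mul_left (show Commute _ s from hQs)
      ((show Commute x s from C.s_x.symm).pow_left _))
      ((show Commute g s from S.s_g.symm).pow_left _))).eq
  obtain ⟨e', he', hee⟩ := P.valQ_surj C hhQ
  rw [← val_of_lt (g := g) P C he'] at hee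
  have he192 : e' < 192 := by omega
  have hes : V e' = h * s * h⁻¹ := hee
  have hse : (h * s * h⁻¹) * s = s * (h * s * h⁻¹) := by rw [← hes]; exact central he192
  obtain ⟨b', hb', hbb⟩ := val_surj (g := g) S P (l := h⁻¹ * s * h) (by
    calc h⁻¹ * s * h * s = h⁻¹ * (s * (h * s * h⁻¹)) * h := by group
      _ = h⁻¹ * ((h * s * h⁻¹) * s) * h := by rw [hse]
      _ = _ := by group)
  have hbs : V b' = h⁻¹ * s * h := hbb
  have inv : ∀ {t}, t < 192 → V t ≠ s → V t * V t = 1 → V t ≠ 1 → isInv sw 1 t = true := by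
    intro t ht h1 h2 h3
    have e1 : mulC sw 1 t t = 0 := Vinj (mulC_lt ht) (by norm_num) (by rw [Vmul ht ht, h2, hV0])
    simp only [isInv, Bool.and_eq_true, Bool.not_eq_true']
    exact ⟨⟨Alt.beq_true e1, Alt.beq_false fun e => h3 (by rw [e, hV0])⟩,
      Alt.beq_false fun e => h1 (by rw [e, hs])⟩
  have hgap : rootsGap sw = true := by
    cases sw with
    | true => exact rootsGap_chk.1
    | false => exact rootsGap_chk.2
  rw [rootsGap, Bool.and_eq_true] at hgap
  have he_inv : isInv sw 1 e' = true := by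
    refine inv he192 (by rw [hes]; exact hhne) ?_ ?_ <;> rw [hes]
    · rw [← conj_mul', C.s_sq]; group
    · intro e1
      exact C.s_ne (eq_of_conj h (e1.trans (by group)))
  have hb_inv : isInv sw 1 b' = true := by
    refine inv hb' ?_ ?_ ?_ <;> rw [hbs]
    · intro e1
      refine hhne ?_
      calc h * s * h⁻¹ = h * (h⁻¹ * s * h) * h⁻¹ := by rw [e1]
        _ = s := by group
    · calc h⁻¹ * s * h * (h⁻¹ * s * h) = h⁻¹ * (s * s) * h := by group
        _ = 1 := by rw [C.s_sq]; group
    · intro e1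
      refine C.s_ne ?_
      calc s = h * (h⁻¹ * s * h) * h⁻¹ := by group
        _ = 1 := by rw [e1]; group
  have g1 := allFrom_spec hgap.1 e' (Nat.zero_le _) (by omega)
  have g2 := allFrom_spec hgap.2 b' (Nat.zero_le _) (by omega)
  rw [he_inv, Bool.not_true, Bool.false_or] at g1
  rw [hb_inv, Bool.not_true, Bool.false_or] at g2
  have l1 := Nat.le_of_ble_eq_true g1
  have l2 := Nat.le_of_ble_eq_true g2
  -- conjugation by `h` exchanges the two centralizers
  have h1 : h⁻¹ * V e' * h = s := by rw [hes]; group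
  have h2 : h * V b' * h⁻¹ = s := by rw [hbs]; group
  have fwd : ∀ t, t < 192 → commC sw 1 t e' = true →
      ∃ u, u < 192 ∧ commC sw 1 u b' = true ∧ V u = h⁻¹ * V t * h := by
    intro t ht hte
    have c1 := (comm_iff ht he192).mp hte
    have c2 := central ht
    obtain ⟨u, hu, hue⟩ := val_surj (g := g) S P (l := h⁻¹ * V t * h) (by
      rw [← h1]
      calc h⁻¹ * V t * h * (h⁻¹ * V e' * h) = h⁻¹ * (V t * V e') * h := by group
        _ = h⁻¹ * (V e' * V t) * h := by rw [c1]
        _ = _ := by group)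
    have hue' : V u = h⁻¹ * V t * h := hue
    refine ⟨u, hu, (comm_iff hu hb').mpr ?_, hue⟩
    rw [hue', hbs]
    calc h⁻¹ * V t * h * (h⁻¹ * s * h) = h⁻¹ * (V t * s) * h := by group
      _ = h⁻¹ * (s * V t) * h := by rw [c2]
      _ = _ := by group
  have bwd : ∀ u, u < 192 → commC sw 1 u b' = true →
      ∃ t, t < 192 ∧ commC sw 1 t e' = true ∧ V t = h * V u * h⁻¹ := by
    intro u hu hub
    have c1 := (comm_iff hu hb').mp hub
    have c2 := central hu
    obtain ⟨t, ht, hte⟩ := val_surj (g := g) S P (l := h * V u * h⁻¹) (by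
      rw [← h2]
      calc h * V u * h⁻¹ * (h * V b' * h⁻¹) = h * (V u * V b') * h⁻¹ := by group
        _ = h * (V b' * V u) * h⁻¹ := by rw [c1]
        _ = _ := by group)
    have hte' : V t = h * V u * h⁻¹ := hte
    refine ⟨t, ht, (comm_iff ht he192).mpr ?_, hte⟩
    rw [hte', hes]
    calc h * V u * h⁻¹ * (h * s * h⁻¹) = h * (V u * s) * h⁻¹ := by group
      _ = h * (s * V u) * h⁻¹ := by rw [c2]
      _ = _ := by group
  choose! f f1 f2 f3 using fwd
  choose! k k1 k2 k3 using bwd
  have hroots : roots sw 1 e' 16 ≤ roots sw 1 b' b' := by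
    rw [roots, roots, countFrom_spec, countFrom_spec]
    refine Finset.card_le_card_of_injOn f ?_ ?_
    · intro t ht
      simp only [Finset.coe_filter, Finset.mem_Ico, Bool.and_eq_true, Set.mem_ofPred_eq] at ht ⊢
      obtain ⟨⟨-, ht2⟩, hc, hsq⟩ := ht
      have ht' : t < 192 := by omega
      refine ⟨⟨Nat.zero_le _, by have := f1 t ht' hc; omega⟩, f2 t ht' hc,
        Alt.beq_true (Vinj (mulC_lt (f1 t ht' hc)) hb' ?_)⟩
      rw [Vmul (f1 t ht' hc) (f1 t ht' hc), f3 t ht' hc, hbs]
      calc h⁻¹ * V t * h * (h⁻¹ * V t * h) = h⁻¹ * (V t * V t) * h := by group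
        _ = _ := by rw [← Vmul ht' ht', Nat.eq_of_beq_eq_true hsq, hs]
    · intro t ht u hu htu
      simp only [Finset.coe_filter, Finset.mem_Ico, Bool.and_eq_true, Set.mem_ofPred_eq] at ht hu
      have ht' : t < 192 := by omega
      have hu' : u < 192 := by omega
      have h4 := congrArg V htu
      rw [f3 t ht' ht.2.1, f3 u hu' hu.2.1] at h4
      exact Vinj ht' hu' (mul_left_cancel (mul_right_cancel h4))
  have hcent : centC sw 1 b' ≤ centC sw 1 e' := by
    rw [centC, centC, countFrom_spec, countFrom_spec]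
    refine Finset.card_le_card_of_injOn k ?_ ?_
    · intro t ht
      simp only [Finset.coe_filter, Finset.mem_Ico, Set.mem_ofPred_eq] at ht ⊢
      have ht' : t < 192 := by omega
      exact ⟨⟨Nat.zero_le _, by have := k1 t ht' ht.2; omega⟩, k2 t ht' ht.2⟩
    · intro t ht u hu htu
      simp only [Finset.coe_filter, Finset.mem_Ico, Set.mem_ofPred_eq] at ht hu
      have ht' : t < 192 := by omega
      have hu' : u < 192 := by omega
      have h4 := congrArg V htu
      rw [k3 t ht' ht.2, k3 u hu' hu.2] at h4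
      exact Vinj ht' hu' (mul_left_cancel (mul_right_cancel h4))
  omega

end

/-- The centralizer is of one of two types. -/
theorem exists_frame {G : Type*} [Group G] [Finite G] (s : G) (hs : orderOf s = 2)
    (L : Subgroup G) (hL : L = Subgroup.centralizer ({s} : Set G))
    (Q : Subgroup G) (hQ : Q = (Cfsg.pCore 2 L).map L.subtype)
    (hQex : Cfsg.IsExtraspecial 2 Q) (hQcard : Nat.card Q = 32)
    (e : L ⧸ Cfsg.pCore 2 L ≃* Equiv.Perm (Fin 3))
    (X : Sylow 3 L)
    (hCQX : Q ⊓ Subgroup.centralizer (((X : Subgroup L).map L.subtype : Subgroup G) : Set G) =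
      Subgroup.zpowers s)
    (hnwc : ∃ g : G, g * s * g⁻¹ ∈ Q ∧ g * s * g⁻¹ ≠ s) :
    Nonempty (Alt.Frame s) ∨ Nonempty (M12.Frame s) := by
  obtain ⟨x, g, S⟩ := exists_setup s hs L hL Q hQ hQex hQcard e X hCQX
  obtain ⟨sw, eps, a, b, d, e', heps, H, P⟩ := exists_gens S
  rcases (show eps = 0 ∨ eps = 1 by omega) with rfl | rfl
  swap
  · obtain ⟨h, h1, h2⟩ := hnwc
    exact (no_fusion S P H h1 h2).elim
  cases sw with
  | true =>
    have tab : ∀ a', a' < 192 → app altW a' < 192 ∧ app altV a' < 192 ∧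
        app altV (app altW a') = a' ∧ app altW (app altV a') = a' ∧
        ∀ b', b' < 192 → app altW (Alt.mul a' b') = mulC true 0 (app altW a') (app altW b') := by
      intro a' ha'
      have h := allFrom_spec alt_table_chk a' (Nat.zero_le a') (by omega)
      simp only [Bool.and_eq_true] at h
      exact ⟨Nat.le_of_ble_eq_true h.1.1.1.1, Nat.le_of_ble_eq_true h.1.1.1.2,
        Nat.eq_of_beq_eq_true h.1.1.2, Nat.eq_of_beq_eq_true h.1.2,
        fun b' hb' => Nat.eq_of_beq_eq_true (allFrom_spec h.2 b' (Nat.zero_le b') (by omega))⟩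
    refine Or.inl ⟨⟨fun a' => val s a b d e' x g (app altW a'), fun u v hu hv => ?_,
      fun u v hu hv huv => ?_, fun l hl => ?_, ?_⟩⟩
    · rw [(tab u hu).2.2.2.2 v hv]
      exact H.val_mul (tab u hu).1 (tab v hv).1
    · rw [← (tab u hu).2.2.1, ← (tab v hv).2.2.1,
        val_inj S P H (tab u hu).1 (tab v hv).1 huv]
    · obtain ⟨t, ht, rfl⟩ := val_surj (g := g) S P hl
      exact ⟨app altV t, (tab t ht).2.1, by rw [(tab t ht).2.2.2.1]⟩
    · rw [sI_chk.1]
      exact val_s P S.core
  | false =>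
    have tab : ∀ a', a' < 192 → app m12W a' < 192 ∧ app m12V a' < 192 ∧
        app m12V (app m12W a') = a' ∧ app m12W (app m12V a') = a' ∧
        ∀ b', b' < 192 → app m12W (M12.mul a' b') = mulC false 0 (app m12W a') (app m12W b') := by
      intro a' ha'
      have h := allFrom_spec m12_table_chk a' (Nat.zero_le a') (by omega)
      simp only [Bool.and_eq_true] at h
      exact ⟨Nat.le_of_ble_eq_true h.1.1.1.1, Nat.le_of_ble_eq_true h.1.1.1.2,
        Nat.eq_of_beq_eq_true h.1.1.2, Nat.eq_of_beq_eq_true h.1.2,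
        fun b' hb' => Nat.eq_of_beq_eq_true (allFrom_spec h.2 b' (Nat.zero_le b') (by omega))⟩
    refine Or.inr ⟨⟨fun a' => val s a b d e' x g (app m12W a'), fun u v hu hv => ?_,
      fun u v hu hv huv => ?_, fun l hl => ?_, ?_⟩⟩
    · rw [(tab u hu).2.2.2.2 v hv]
      exact H.val_mul (tab u hu).1 (tab v hv).1
    · rw [← (tab u hu).2.2.1, ← (tab v hv).2.2.1,
        val_inj S P H (tab u hu).1 (tab v hv).1 huv]
    · obtain ⟨t, ht, rfl⟩ := val_surj (g := g) S P hl
      exact ⟨app m12V t, (tab t ht).2.1, by rw [(tab t ht).2.2.2.1]⟩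
    · rw [sI_chk.2]
      exact val_s P S.core

end Cfsg.Agent.H80.Types
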