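import Cfsg.Agent.H80.Types.Model

/-! Groups with generators satisfying the relations of the normal forms. -/

set_option autoImplicit false
set_option maxRecDepth 8000

namespace Cfsg.Agent.H80.Types

open Cfsg.Agent.H16

/-- Generators of an involution centralizer: two quaternion groups, an element of order three and
an element inverting it, whose square is `s ^ eps`. -/
structure Gens {G : Type*} [Group G] (sw : Bool) (eps : Nat) (s a b d e x g : G) : Prop where
  s_sq : s * s = 1
  s_a : s * a = a * s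
  s_b : s * b = b * s
  s_d : s * d = d * s
  s_e : s * e = e * s
  s_x : s * x = x * s
  s_g : s * g = g * s
  a_sq : a * a = s
  b_sq : b * b = s
  b_a : b * a = a * b * s
  d_sq : d * d = s
  e_sq : e * e = s
  e_d : e * d = d * e * s
  d_a : d * a = a * d
  e_a : e * a = a * e
  d_b : d * b = b * d
  e_b : e * b = b * e
  x_cube : x * x * x = 1
  x_a : x * a * x⁻¹ = b
  x_b : x * b * x⁻¹ = a * b
  x_d : x * d * x⁻¹ = if sw then d * e else e
  x_e : x * e * x⁻¹ = if sw then d else d * e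
  g_sq : g * g = s ^ eps
  g_x : g * x * g⁻¹ = x⁻¹
  g_a : g * a * g⁻¹ = if sw then d else a * s
  g_b : g * b * g⁻¹ = if sw then e else a * b * s
  g_d : g * d * g⁻¹ = if sw then a else d * s
  g_e : g * e * g⁻¹ = if sw then b else d * e * s

/-- the four units of a quaternion pair -/
def unit {G : Type*} [Group G] (a b : G) : Nat → G
  | 0 => 1
  | 1 => a
  | 2 => b
  | _ => a * b

/-- value of a core code -/
noncomputable def valQ {G : Type*} [Group G] (s a b d e : G) (q : Nat) : G :=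
  unit a b (q % 4) * unit d e (q / 4 % 4) * s ^ (q / 16)

/-- value of a code -/
noncomputable def val {G : Type*} [Group G] (s a b d e x g : G) (t : Nat) : G :=
  valQ s a b d e (t % 32) * x ^ (t / 32 % 3) * g ^ (t / 96)

theorem coc_eq : ∀ i, i < 4 → ∀ k, k < 4 →
    coc i k = [0, 0, 0, 0, 0, 1, 0, 1, 0, 1, 1, 0, 0, 0, 1, 1].getD (4 * i + k) 0 ∧
    Nat.xor i k = [0, 1, 2, 3, 1, 0, 3, 2, 2, 3, 0, 1, 3, 2, 1, 0].getD (4 * i + k) 0 := by
  decide +kernel

theorem perm_eq : ∀ i, i < 4 → pX i = [0, 2, 3, 1].getD i 0 ∧ pG i = [0, 1, 3, 2].getD i 0 ∧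
    pY true i = [0, 3, 1, 2].getD i 0 ∧ pY false i = [0, 2, 3, 1].getD i 0 ∧
    nz i = [0, 1, 1, 1].getD i 0 := by
  decide +kernel

theorem pow_mod_two {G : Type*} [Group G] {s : G} (h : s * s = 1) (n : ℕ) :
    s ^ n = s ^ (n % 2) := by
  conv_lhs => rw [← Nat.mod_add_div n 2, pow_add, pow_mul, pow_two, h, one_pow, mul_one]

theorem unit_mul {G : Type*} [Group G] {s a b : G} (hs : s * s = 1) (sa : s * a = a * s)
    (sb : s * b = b * s) (aa : a * a = s) (bb : b * b = s) (ba : b * a = a * b * s) {i k : Nat}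
    (hi : i < 4) (hk : k < 4) :
    unit a b i * unit a b k = unit a b (Nat.xor i k) * s ^ coc i k := by
  rw [(coc_eq i hi k hk).1, (coc_eq i hi k hk).2]
  have l1 : ∀ t, s * (s * t) = t := fun t => by rw [← mul_assoc, hs, one_mul]
  have l2 : ∀ t, s * (a * t) = a * (s * t) := fun t => by rw [← mul_assoc, sa, mul_assoc]
  have l3 : ∀ t, s * (b * t) = b * (s * t) := fun t => by rw [← mul_assoc, sb, mul_assoc]
  have l4 : ∀ t, a * (a * t) = s * t := fun t => by rw [← mul_assoc, aa]
  have l5 : ∀ t, b * (b * t) = s * t := fun t => by rw [← mul_assoc, bb]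
  have l6 : ∀ t, b * (a * t) = a * (b * (s * t)) := fun t => by
    rw [← mul_assoc, ba, mul_assoc, mul_assoc]
  interval_cases i <;> interval_cases k <;>
    simp [unit, mul_assoc, hs, aa, bb, sa, sb, ba, l1, l2, l3, l4, l5, l6]

theorem qdecomp {x y z : Nat} (hx : x < 4) (hy : y < 4) (hz : z < 2) :
    (x + 4 * y + 16 * z) % 4 = x ∧ (x + 4 * y + 16 * z) / 4 % 4 = y ∧
      (x + 4 * y + 16 * z) / 16 = z := by
  omega

theorem mulC_lt {sw : Bool} {eps u v : Nat} (hv : v < 192) :
    mulC sw eps u v < 192 := by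
  have hb : ∀ q r, qmul q r < 32 := fun q r => by
    have hx : ∀ i, i < 4 → ∀ k, k < 4 → Nat.xor i k < 4 := by decide +kernel
    have h1 := hx (q % 4) (Nat.mod_lt _ (by norm_num)) (r % 4) (Nat.mod_lt _ (by norm_num))
    have h2 := hx (q / 4 % 4) (Nat.mod_lt _ (by norm_num)) (r / 4 % 4) (Nat.mod_lt _ (by norm_num))
    unfold qmul
    omega
  have he : expX (u / 32 % 3) (u / 96) (v / 32 % 3) < 3 := by
    unfold expX
    cases Nat.beq (u / 96) 0 <;> simp <;> omega
  have := hb (qmul (u % 32) (xqN sw (u / 32 % 3) (gqP sw (u / 96) (v % 32))))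
    (16 * (eps * (u / 96) * (v / 96) % 2))
  unfold mulC
  omega

namespace Gens

variable {G : Type*} [Group G] {sw : Bool} {eps : Nat} {s a b d e x g : G}
  (H : Gens sw eps s a b d e x g)

include H

theorem comm_unit_left : ∀ i, i < 4 → s * unit a b i = unit a b i * s := by
  intro i hi
  interval_cases i <;> simp [unit, H.s_a, H.s_b]
  rw [← mul_assoc, H.s_a, mul_assoc, H.s_b, mul_assoc]

theorem comm_unit_right : ∀ j, j < 4 → s * unit d e j = unit d e j * s := by
  intro j hj
  interval_cases j <;> simp [unit, H.s_d, H.s_e]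
  rw [← mul_assoc, H.s_d, mul_assoc, H.s_e, mul_assoc]

theorem comm_units : ∀ i, i < 4 → ∀ j, j < 4 →
    unit d e j * unit a b i = unit a b i * unit d e j := by
  intro i hi j hj
  have h1 : ∀ t, d * (a * t) = a * (d * t) := fun t => by rw [← mul_assoc, H.d_a, mul_assoc]
  have h2 : ∀ t, e * (a * t) = a * (e * t) := fun t => by rw [← mul_assoc, H.e_a, mul_assoc]
  have h3 : ∀ t, d * (b * t) = b * (d * t) := fun t => by rw [← mul_assoc, H.d_b, mul_assoc]
  have h4 : ∀ t, e * (b * t) = b * (e * t) := fun t => by rw [← mul_assoc, H.e_b, mul_assoc]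
  interval_cases i <;> interval_cases j <;>
    simp [unit, mul_assoc, H.d_a, H.e_a, H.d_b, H.e_b, h1, h2, h3, h4]

theorem valQ_mul {q r : Nat} (hq : q < 32) (hr : r < 32) :
    valQ s a b d e (qmul q r) = valQ s a b d e q * valQ s a b d e r := by
  have hi : q % 4 < 4 := Nat.mod_lt _ (by norm_num)
  have hj : q / 4 % 4 < 4 := Nat.mod_lt _ (by norm_num)
  have hk : r % 4 < 4 := Nat.mod_lt _ (by norm_num)
  have hl : r / 4 % 4 < 4 := Nat.mod_lt _ (by norm_num)
  have hx : ∀ i, i < 4 → ∀ k, k < 4 → Nat.xor i k < 4 := by decide +kernel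
  set i := q % 4
  set j := q / 4 % 4
  set k := r % 4
  set l := r / 4 % 4
  set σ := q / 16
  set τ := r / 16
  obtain ⟨e1, e2, e3⟩ := qdecomp (z := (σ + τ + coc i k + coc j l) % 2) (hx i hi k hk) (hx j hj l hl)
    (Nat.mod_lt _ (by norm_num))
  have hsc : ∀ (n : ℕ) (z : G), s * z = z * s → s ^ n * z = z * s ^ n := fun n z h =>
    (Commute.pow_left h n).eq
  have cA := hsc σ _ (H.comm_unit_left k hk)
  have cB := hsc σ _ (H.comm_unit_right l hl)
  have cB2 := hsc (coc i k) _ (H.comm_unit_right (Nat.xor j l) (hx j hj l hl))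
  show unit a b (qmul q r % 4) * unit d e (qmul q r / 4 % 4) * s ^ (qmul q r / 16) = _
  rw [qmul, e1, e2, e3, ← pow_mod_two H.s_sq]
  show _ = unit a b i * unit d e j * s ^ σ * (unit a b k * unit d e l * s ^ τ)
  have L : unit a b i * unit d e j * s ^ σ * (unit a b k * unit d e l * s ^ τ) =
      unit a b i * unit a b k * (unit d e j * unit d e l) * (s ^ σ * s ^ τ) := by
    calc _ = unit a b i * unit d e j * (s ^ σ * unit a b k) * unit d e l * s ^ τ := by
          simp only [mul_assoc]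
      _ = unit a b i * (unit d e j * unit a b k) * (s ^ σ * unit d e l) * s ^ τ := by
          rw [cA]; simp only [mul_assoc]
      _ = _ := by rw [H.comm_units k hk j hj, cB]; simp only [mul_assoc]
  rw [L, unit_mul H.s_sq H.s_a H.s_b H.a_sq H.b_sq H.b_a hi hk,
    unit_mul H.s_sq H.s_d H.s_e H.d_sq H.e_sq H.e_d hj hl]
  calc _ = unit a b (Nat.xor i k) * unit d e (Nat.xor j l) * s ^ (coc i k + (coc j l + (σ + τ))) := by
        rw [show coc i k + (coc j l + (σ + τ)) = σ + τ + coc i k + coc j l by ring]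
    _ = unit a b (Nat.xor i k) * (s ^ coc i k * unit d e (Nat.xor j l)) *
          (s ^ coc j l * (s ^ σ * s ^ τ)) := by
        rw [cB2, pow_add, pow_add, pow_add]; simp only [mul_assoc]
    _ = _ := by simp only [mul_assoc]

omit H in
theorem conj_valQ (h : G) (hs : h * s * h⁻¹ = s) (q : Nat) :
    h * valQ s a b d e q * h⁻¹ =
      h * unit a b (q % 4) * h⁻¹ * (h * unit d e (q / 4 % 4) * h⁻¹) * s ^ (q / 16) := by
  have : h * s ^ (q / 16) * h⁻¹ = s ^ (q / 16) := by rw [← conj_pow, hs]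
  rw [valQ, ← conj_mul, ← conj_mul, this]

theorem x_valQ {q : Nat} (hq : q < 32) :
    x * valQ s a b d e q * x⁻¹ = valQ s a b d e (xq sw q) := by
  have hi : q % 4 < 4 := Nat.mod_lt _ (by norm_num)
  have hj : q / 4 % 4 < 4 := Nat.mod_lt _ (by norm_num)
  obtain ⟨p1, -, p3, p4, -⟩ := perm_eq _ hj
  obtain ⟨q1, -, -, -, -⟩ := perm_eq _ hi
  have hA : x * unit a b (q % 4) * x⁻¹ = unit a b (pX (q % 4)) := by
    rw [q1]
    have : x * (a * b) * x⁻¹ = a := by
      rw [← conj_mul, H.x_a, H.x_b, ← mul_assoc, H.b_a, mul_assoc, H.s_b, ← mul_assoc, mul_assoc a,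
        H.b_sq, mul_assoc, H.s_sq, mul_one]
    interval_cases (q % 4) <;> simp [unit, H.x_a, H.x_b, this]
  have hB : x * unit d e (q / 4 % 4) * x⁻¹ = unit d e (pY sw (q / 4 % 4)) := by
    have h1 := H.x_d
    have h2 := H.x_e
    cases sw with
    | true =>
      simp only [if_true] at h1 h2
      rw [p3]
      have : x * (d * e) * x⁻¹ = e := by
        rw [← conj_mul, h1, h2, mul_assoc, H.e_d, ← mul_assoc, ← mul_assoc, H.d_sq, H.s_e,
          mul_assoc, H.s_sq, mul_one]
      interval_cases (q / 4 % 4) <;> simp [unit, h1, h2, this]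
    | false =>
      simp only [Bool.false_eq_true, if_false] at h1 h2
      rw [p4]
      have : x * (d * e) * x⁻¹ = d := by
        rw [← conj_mul, h1, h2, ← mul_assoc, H.e_d, mul_assoc, H.s_e, ← mul_assoc, mul_assoc d,
          H.e_sq, mul_assoc, H.s_sq, mul_one]
      interval_cases (q / 4 % 4) <;> simp [unit, h1, h2, this]
  rw [conj_valQ x (by rw [← H.s_x, mul_inv_cancel_right]) q, hA, hB]
  have hlt : pX (q % 4) < 4 ∧ pY sw (q / 4 % 4) < 4 := by
    have : ∀ i, i < 4 → pX i < 4 ∧ pY true i < 4 ∧ pY false i < 4 := by decide +kernel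
    cases sw with
    | true => exact ⟨(this _ hi).1, (this _ hj).2.1⟩
    | false => exact ⟨(this _ hi).1, (this _ hj).2.2⟩
  obtain ⟨e1, e2, e3⟩ := qdecomp (z := q / 16) hlt.1 hlt.2 (by omega)
  show _ = unit a b (xq sw q % 4) * unit d e (xq sw q / 4 % 4) * s ^ (xq sw q / 16)
  rw [xq, e1, e2, e3]

theorem g_valQ {q : Nat} (hq : q < 32) :
    g * valQ s a b d e q * g⁻¹ = valQ s a b d e (gq sw q) := by
  have hi : q % 4 < 4 := Nat.mod_lt _ (by norm_num)
  have hj : q / 4 % 4 < 4 := Nat.mod_lt _ (by norm_num)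
  rw [conj_valQ g (by rw [← H.s_g, mul_inv_cancel_right]) q]
  cases sw with
  | true =>
    have h1 := H.g_a; have h2 := H.g_b; have h3 := H.g_d; have h4 := H.g_e
    simp only [if_true] at h1 h2 h3 h4
    have ab : g * (a * b) * g⁻¹ = d * e := by rw [← conj_mul, h1, h2]
    have de : g * (d * e) * g⁻¹ = a * b := by rw [← conj_mul, h3, h4]
    have hA : g * unit a b (q % 4) * g⁻¹ = unit d e (q % 4) := by
      interval_cases (q % 4) <;> simp [unit, h1, h2, ab]
    have hB : g * unit d e (q / 4 % 4) * g⁻¹ = unit a b (q / 4 % 4) := by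
      interval_cases (q / 4 % 4) <;> simp [unit, h3, h4, de]
    obtain ⟨e1, e2, e3⟩ := qdecomp (z := q / 16) hj hi (by omega)
    show _ = unit a b (gq true q % 4) * unit d e (gq true q / 4 % 4) * s ^ (gq true q / 16)
    rw [show gq true q = q / 4 % 4 + 4 * (q % 4) + 16 * (q / 16) from rfl, e1, e2, e3, hA, hB,
      H.comm_units _ hj _ hi]
  | false =>
    have h1 := H.g_a; have h2 := H.g_b; have h3 := H.g_d; have h4 := H.g_e
    simp only [Bool.false_eq_true, if_false] at h1 h2 h3 h4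
    have ab : g * (a * b) * g⁻¹ = b * s := by
      rw [← conj_mul, h1, h2]
      calc a * s * (a * b * s) = a * (s * a) * b * s := by simp only [mul_assoc]
        _ = a * a * (s * b) * s := by rw [H.s_a]; simp only [mul_assoc]
        _ = s * s * b * s := by rw [H.a_sq]; simp only [mul_assoc]
        _ = _ := by rw [H.s_sq, one_mul]
    have de : g * (d * e) * g⁻¹ = e * s := by
      rw [← conj_mul, h3, h4]
      calc d * s * (d * e * s) = d * (s * d) * e * s := by simp only [mul_assoc]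
        _ = d * d * (s * e) * s := by rw [H.s_d]; simp only [mul_assoc]
        _ = s * s * e * s := by rw [H.d_sq]; simp only [mul_assoc]
        _ = _ := by rw [H.s_sq, one_mul]
    have hA : g * unit a b (q % 4) * g⁻¹ = unit a b (pG (q % 4)) * s ^ nz (q % 4) := by
      rw [(perm_eq _ hi).2.1, (perm_eq _ hi).2.2.2.2]
      interval_cases (q % 4) <;> simp [unit, h1, h2, ab]
    have hB : g * unit d e (q / 4 % 4) * g⁻¹ =
        unit d e (pG (q / 4 % 4)) * s ^ nz (q / 4 % 4) := by
      rw [(perm_eq _ hj).2.1, (perm_eq _ hj).2.2.2.2]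
      interval_cases (q / 4 % 4) <;> simp [unit, h3, h4, de]
    have hlt : ∀ i, i < 4 → pG i < 4 := by decide +kernel
    obtain ⟨e1, e2, e3⟩ := qdecomp (z := (q / 16 + nz (q % 4) + nz (q / 4 % 4)) % 2)
      (hlt _ hi) (hlt _ hj) (Nat.mod_lt _ (by norm_num))
    show _ = unit a b (gq false q % 4) * unit d e (gq false q / 4 % 4) * s ^ (gq false q / 16)
    rw [show gq false q = pG (q % 4) + 4 * pG (q / 4 % 4) +
        16 * ((q / 16 + nz (q % 4) + nz (q / 4 % 4)) % 2) from rfl, e1, e2, e3,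
      ← pow_mod_two H.s_sq, hA, hB]
    have c := (Commute.pow_left (H.comm_unit_right _ (hlt _ hj)) (nz (q % 4))).eq
    calc _ = unit a b (pG (q % 4)) * (s ^ nz (q % 4) * unit d e (pG (q / 4 % 4))) *
          (s ^ nz (q / 4 % 4) * s ^ (q / 16)) := by simp only [mul_assoc]
      _ = unit a b (pG (q % 4)) * unit d e (pG (q / 4 % 4)) *
          (s ^ nz (q % 4) * (s ^ nz (q / 4 % 4) * s ^ (q / 16))) := by rw [c]; simp only [mul_assoc]
      _ = _ := by rw [← pow_add, ← pow_add]; congr 2; ring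

theorem act_lt {q : Nat} (hq : q < 32) : xq sw q < 32 ∧ gq sw q < 32 := by
  have h := allFrom_spec act_bound_chk q (Nat.zero_le q) (by omega)
  simp only [Bool.and_eq_true] at h
  cases sw with
  | true => exact ⟨Nat.le_of_ble_eq_true h.1.1.1, Nat.le_of_ble_eq_true h.1.2⟩
  | false => exact ⟨Nat.le_of_ble_eq_true h.1.1.2, Nat.le_of_ble_eq_true h.2⟩

theorem val_mul {u v : Nat} (hu : u < 192) (hv : v < 192) :
    val s a b d e x g (mulC sw eps u v) = val s a b d e x g u * val s a b d e x g v := by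
  have hq : u % 32 < 32 := Nat.mod_lt _ (by norm_num)
  have hr : v % 32 < 32 := Nat.mod_lt _ (by norm_num)
  have hn : u / 32 % 3 < 3 := Nat.mod_lt _ (by norm_num)
  have hm : v / 32 % 3 < 3 := Nat.mod_lt _ (by norm_num)
  have hp : u / 96 < 2 := by omega
  have ho : v / 96 < 2 := by omega
  set q := u % 32
  set r := v % 32
  set n := u / 32 % 3
  set m := v / 32 % 3
  set p := u / 96
  set o := v / 96
  have x3 : x ^ 3 = 1 := by rw [pow_succ, pow_two, H.x_cube]
  have xmod : ∀ k : ℕ, x ^ k = x ^ (k % 3) := fun k => by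
    conv_lhs => rw [← Nat.mod_add_div k 3, pow_add, pow_mul, x3, one_pow, mul_one]
  -- moving the core to the left
  have r1 : gqP sw p r < 32 ∧ g ^ p * valQ s a b d e r * (g ^ p)⁻¹ =
      valQ s a b d e (gqP sw p r) := by
    rcases (show p = 0 ∨ p = 1 by omega) with e | e <;> rw [e]
    · exact ⟨hr, by rw [pow_zero, one_mul, inv_one, mul_one]; rfl⟩
    · exact ⟨(H.act_lt hr).2, by rw [pow_one, H.g_valQ hr]; rfl⟩
  have r2 : xqN sw n (gqP sw p r) < 32 ∧ x ^ n * valQ s a b d e (gqP sw p r) * (x ^ n)⁻¹ =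
      valQ s a b d e (xqN sw n (gqP sw p r)) := by
    rcases (show n = 0 ∨ n = 1 ∨ n = 2 by omega) with e | e | e <;> rw [e]
    · exact ⟨r1.1, by rw [pow_zero, one_mul, inv_one, mul_one]; rfl⟩
    · exact ⟨(H.act_lt r1.1).1, by rw [pow_one, H.x_valQ r1.1]; rfl⟩
    · refine ⟨(H.act_lt (H.act_lt r1.1).1).1, ?_⟩
      show _ = valQ s a b d _ (xq sw (xq sw _))
      rw [← H.x_valQ (H.act_lt r1.1).1, ← H.x_valQ r1.1, pow_two]
      group
  set r' := xqN sw n (gqP sw p r)
  set σ := eps * p * o % 2 with hσ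
  have hσ16 : 16 * σ < 32 := by omega
  have tail : x ^ n * g ^ p * (x ^ m * g ^ o) = s ^ σ * x ^ expX n p m * g ^ ((p + o) % 2) := by
    rcases (show p = 0 ∨ p = 1 by omega) with e | e <;> rw [hσ, e]
    · rw [mul_zero, zero_mul, Nat.zero_mod, pow_zero, pow_zero, mul_one, one_mul, zero_add,
        Nat.mod_eq_of_lt ho, show expX n 0 m = (n + m) % 3 from rfl, ← xmod (n + m), pow_add]
      simp only [mul_assoc]
    · have hgx : g * x ^ m = x ^ (2 * m) * g := by
        have h1 : g * x ^ m * g⁻¹ = x ^ (2 * m) := by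
          rw [← conj_pow, H.g_x, inv_eq_of_mul_eq_one_left H.x_cube, ← pow_two, ← pow_mul]
        rw [← h1, inv_mul_cancel_right]
      rw [pow_one, show expX n 1 m = (n + 2 * m) % 3 from rfl, ← xmod (n + 2 * m), mul_one]
      have key : x ^ n * g * (x ^ m * g ^ o) = x ^ (n + 2 * m) * (g * g ^ o) := by
        calc x ^ n * g * (x ^ m * g ^ o) = x ^ n * (g * x ^ m) * g ^ o := by
              simp only [mul_assoc]
          _ = _ := by rw [hgx, pow_add]; simp only [mul_assoc]
      rw [key]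
      rcases (show o = 0 ∨ o = 1 by omega) with e | e <;> rw [e]
      · simp
      · rw [pow_one, H.g_sq, mul_one, ← pow_mod_two H.s_sq, show (1 + 1) % 2 = 0 from rfl,
          pow_zero, mul_one, (Commute.pow_pow (H.s_x : Commute s x) eps (n + 2 * m)).eq]
  have hx2 : x ^ n * g ^ p * valQ s a b d e r = valQ s a b d e r' * (x ^ n * g ^ p) := by
    rw [← r2.2, ← r1.2]
    group
  have hq' : qmul q r' < 32 :=
    Nat.le_of_ble_eq_true (allFrom_spec (allFrom_spec qmul_bound_chk q (Nat.zero_le q) (by omega))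
      r' (Nat.zero_le r') (by have := r2.1; omega))
  have hQ' : qmul (qmul q r') (16 * σ) < 32 :=
    Nat.le_of_ble_eq_true (allFrom_spec (allFrom_spec qmul_bound_chk _ (Nat.zero_le _) (by omega))
      (16 * σ) (Nat.zero_le _) (by omega))
  have hvσ : valQ s a b d e (16 * σ) = s ^ σ := by
    show unit a b (16 * σ % 4) * unit d e (16 * σ / 4 % 4) * s ^ (16 * σ / 16) = _
    rw [show 16 * σ % 4 = 0 by omega, show 16 * σ / 4 % 4 = 0 by omega,
      show 16 * σ / 16 = σ by omega]
    simp [unit]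
  have hE : expX n p m < 3 := by
    unfold expX
    cases Nat.beq p 0 <;> simp <;> omega
  have hdec : mulC sw eps u v % 32 = qmul (qmul q r') (16 * σ) ∧
      mulC sw eps u v / 32 % 3 = expX n p m ∧ mulC sw eps u v / 96 = (p + o) % 2 := by
    show (qmul (qmul q r') (16 * σ) + 32 * expX n p m + 96 * ((p + o) % 2)) % 32 = _ ∧
      (qmul (qmul q r') (16 * σ) + 32 * expX n p m + 96 * ((p + o) % 2)) / 32 % 3 = _ ∧
      (qmul (qmul q r') (16 * σ) + 32 * expX n p m + 96 * ((p + o) % 2)) / 96 = _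
    omega
  show valQ s a b d e (mulC sw eps u v % 32) * x ^ (mulC sw eps u v / 32 % 3) *
      g ^ (mulC sw eps u v / 96) =
    valQ s a b d e q * x ^ n * g ^ p * (valQ s a b d e r * x ^ m * g ^ o)
  rw [hdec.1, hdec.2.1, hdec.2.2, H.valQ_mul hq' hσ16, H.valQ_mul hq r2.1, hvσ]
  calc _ = valQ s a b d e q * valQ s a b d e r' * (s ^ σ * x ^ expX n p m * g ^ ((p + o) % 2)) := by
        simp only [mul_assoc]
    _ = valQ s a b d e q * valQ s a b d e r' * (x ^ n * g ^ p * (x ^ m * g ^ o)) := by rw [tail]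
    _ = valQ s a b d e q * (valQ s a b d e r' * (x ^ n * g ^ p)) * (x ^ m * g ^ o) := by
        simp only [mul_assoc]
    _ = _ := by rw [← hx2]; simp only [mul_assoc]

end Gens

end Cfsg.Agent.H80.Types
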