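import Mathlib

/-! Quaternion subgroups of the core invariant under an element of order three. -/

set_option autoImplicit false

namespace Cfsg.Agent.H80.Types

/-- The properties of the core used for finding generators. -/
structure Core {G : Type*} [Group G] (s : G) (Q : Subgroup G) (x : G) : Prop where
  card : Nat.card Q = 32
  s_mem : s ∈ Q
  s_ne : s ≠ 1
  s_sq : s * s = 1
  s_comm : ∀ u ∈ Q, s * u = u * s
  s_x : s * x = x * s
  center : ∀ u ∈ Q, (∀ v ∈ Q, u * v = v * u) → u = 1 ∨ u = s
  comm : ∀ u ∈ Q, ∀ v ∈ Q, u * v = v * u ∨ u * v = v * u * s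
  x_cube : x * x * x = 1
  x_norm : ∀ u ∈ Q, x * u * x⁻¹ ∈ Q
  fixed : ∀ u ∈ Q, x * u = u * x → u = 1 ∨ u = s

/-- A quaternion pair permuted by the element of order three. -/
structure Quad {G : Type*} [Group G] (s : G) (Q : Subgroup G) (x a : G) : Prop where
  mem : a ∈ Q
  mem' : x * a * x⁻¹ ∈ Q
  sq : a * a = s
  sq' : x * a * x⁻¹ * (x * a * x⁻¹) = s
  anti : x * a * x⁻¹ * a = a * (x * a * x⁻¹) * s
  step : x * (x * a * x⁻¹) * x⁻¹ = a * (x * a * x⁻¹)

theorem conj_mul' {G : Type*} [Group G] (h u v : G) :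
    h * (u * v) * h⁻¹ = h * u * h⁻¹ * (h * v * h⁻¹) := by group

theorem eq_of_conj {G : Type*} [Group G] (h : G) {u v : G} (e : h * u * h⁻¹ = h * v * h⁻¹) :
    u = v :=
  mul_left_cancel (mul_right_cancel e)

namespace Core

variable {G : Type*} [Group G] {s : G} {Q : Subgroup G} {x : G} (C : Core s Q x)

include C

theorem sq_cases {u : G} (hu : u ∈ Q) : u * u = 1 ∨ u * u = s := by
  refine C.center _ (Q.mul_mem hu hu) fun v hv => ?_
  rcases C.comm u hu v hv with h | h
  · rw [mul_assoc, h, ← mul_assoc, h, mul_assoc]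
  · rw [mul_assoc u u v, h, ← mul_assoc, ← mul_assoc, h, mul_assoc (v * u) s u, C.s_comm u hu]
    calc v * u * (u * s) * s = v * (u * u) * (s * s) := by simp only [mul_assoc]
      _ = v * (u * u) := by rw [C.s_sq, mul_one]

theorem conj_s : x * s * x⁻¹ = s := by rw [← C.s_x, mul_inv_cancel_right]

theorem comm_s_mul {u v : G} (hu : u ∈ Q) (hv : v ∈ Q) (h : u * v = v * u) :
    (u * s) * v = v * (u * s) := by
  rw [mul_assoc, C.s_comm v hv, ← mul_assoc, h, mul_assoc]

theorem exists_root : ∃ u ∈ Q, u * u = s := by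
  by_contra hc
  push Not at hc
  have h2 : ∀ u ∈ Q, u * u = 1 := fun u hu => (C.sq_cases hu).resolve_right (hc u hu)
  have hab : ∀ u ∈ Q, ∀ v ∈ Q, u * v = v * u := by
    intro u hu v hv
    calc u * v = (v * v) * (u * v) * (u * u) := by rw [h2 v hv, h2 u hu]; group
      _ = v * ((v * u) * (v * u)) * u := by simp only [mul_assoc]
      _ = v * u := by rw [h2 _ (Q.mul_mem hv hu), mul_one]
  have hsub : (Q : Set G) ⊆ {1, s} := fun u hu => by
    rcases C.center u hu (hab u hu) with h | h <;> simp [h]
  have := Set.ncard_le_ncard hsub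
  have h3 : ({1, s} : Set G).ncard ≤ 2 := (Set.ncard_insert_le _ _).trans (by simp)
  have h4 : (Q : Set G).ncard = 32 := by rw [← Nat.card_coe_set_eq]; exact C.card
  omega

theorem fixed_mod {u : G} (hu : u ∈ Q) (h : x * u * x⁻¹ = u ∨ x * u * x⁻¹ = u * s) :
    u = 1 ∨ u = s := by
  rcases h with h | h
  · exact C.fixed u hu (mul_inv_eq_iff_eq_mul.mp h)
  · exfalso
    have e2 : x * (x * u * x⁻¹) * x⁻¹ = u := by
      rw [h, conj_mul', h, C.conj_s, mul_assoc, C.s_sq, mul_one]
    have e3 : x * (x * (x * u * x⁻¹) * x⁻¹) * x⁻¹ = u * s := by rw [e2, h]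
    have e4 : x * (x * (x * u * x⁻¹) * x⁻¹) * x⁻¹ = u := by
      calc _ = (x * x * x) * u * (x * x * x)⁻¹ := by group
        _ = u := by rw [C.x_cube]; group
    rw [e4] at e3
    exact C.s_ne (mul_left_cancel (a := u) (by rw [mul_one]; exact e3.symm))

/-- An element of order four gives, up to sign, a quaternion pair. -/
theorem exists_quad {u : G} (hu : u ∈ Q) (hsq : u * u = s) :
    Quad s Q x u ∨ Quad s Q x (u * s) := by
  set b := x * u * x⁻¹ with hb
  set c := x * b * x⁻¹ with hc
  have bQ : b ∈ Q := C.x_norm u hu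
  have cQ : c ∈ Q := C.x_norm b bQ
  clear_value b c
  have hbb : b * b = s := by rw [hb, ← conj_mul', hsq, C.conj_s]
  have hcc : c * c = s := by rw [hc, ← conj_mul', hbb, C.conj_s]
  have hxc : x * c * x⁻¹ = u := by
    calc _ = (x * x * x) * u * (x * x * x)⁻¹ := by rw [hc, hb]; group
      _ = u := by rw [C.x_cube]; group
  have hfix : u * b * c = 1 ∨ u * b * c = s := by
    refine C.fixed_mod (Q.mul_mem (Q.mul_mem hu bQ) cQ) ?_
    rw [conj_mul', conj_mul', ← hb, ← hc, hxc]
    rcases C.comm (b * c) (Q.mul_mem bQ cQ) u hu with h | h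
    · exact Or.inl (by rw [h, mul_assoc])
    · exact Or.inr (by rw [h]; simp only [mul_assoc])
  have hcd : c = (u * b)⁻¹ ∨ c = (u * b)⁻¹ * s := by
    rcases hfix with h | h
    · exact Or.inl (eq_inv_of_mul_eq_one_right h)
    · exact Or.inr (eq_inv_mul_iff_mul_eq.mpr h)
  have hanti : b * u = u * b * s := by
    refine (C.comm b bQ u hu).resolve_left fun h => ?_
    have h1 : (u * b) * (u * b) = 1 := by
      calc u * b * (u * b) = u * (b * u) * b := by simp only [mul_assoc]
        _ = (u * u) * (b * b) := by rw [h]; simp only [mul_assoc]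
        _ = 1 := by rw [hsq, hbb, C.s_sq]
    have h2 : c * c = 1 := by
      have hsc := C.s_comm _ (Q.inv_mem (Q.mul_mem hu bQ))
      rcases hcd with e | e <;> rw [e]
      · rw [← mul_inv_rev, h1, inv_one]
      · calc (u * b)⁻¹ * s * ((u * b)⁻¹ * s) = (u * b)⁻¹ * (s * (u * b)⁻¹) * s := by
              simp only [mul_assoc]
          _ = ((u * b) * (u * b))⁻¹ * (s * s) := by rw [hsc]; simp only [mul_inv_rev, mul_assoc]
          _ = 1 := by rw [h1, C.s_sq]; group
    rw [hcc] at h2
    exact C.s_ne h2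
  have hub2 : u * b * (u * b) = s := by
    calc u * b * (u * b) = u * (b * u) * b := by simp only [mul_assoc]
      _ = u * u * b * (s * b) := by rw [hanti]; simp only [mul_assoc]
      _ = u * u * (b * b) * s := by rw [C.s_comm b bQ]; simp only [mul_assoc]
      _ = s := by rw [hsq, hbb, C.s_sq, one_mul]
  have hinv : (u * b)⁻¹ = u * b * s :=
    inv_eq_of_mul_eq_one_right (by rw [← mul_assoc, hub2, C.s_sq])
  have hus : u * s ∈ Q := Q.mul_mem hu C.s_mem
  have hb' : x * (u * s) * x⁻¹ = b * s := by rw [conj_mul', C.conj_s, ← hb]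
  rcases hcd with e | e <;> rw [hinv] at e
  · -- the other sign
    refine Or.inr ⟨hus, by rw [hb']; exact Q.mul_mem bQ C.s_mem, ?_, ?_, ?_, ?_⟩
    · calc u * s * (u * s) = u * (s * u) * s := by simp only [mul_assoc]
        _ = u * u * (s * s) := by rw [C.s_comm u hu]; simp only [mul_assoc]
        _ = s := by rw [hsq, C.s_sq, mul_one]
    · rw [hb']
      calc b * s * (b * s) = b * (s * b) * s := by simp only [mul_assoc]
        _ = b * b * (s * s) := by rw [C.s_comm b bQ]; simp only [mul_assoc]
        _ = s := by rw [hbb, C.s_sq, mul_one]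
    · rw [hb']
      calc b * s * (u * s) = b * (s * u) * s := by simp only [mul_assoc]
        _ = b * u * (s * s) := by rw [C.s_comm u hu]; simp only [mul_assoc]
        _ = u * b * (s * s) * s := by rw [hanti, C.s_sq]; simp only [mul_assoc, mul_one]
        _ = u * (s * b) * s * s := by rw [C.s_comm b bQ]; simp only [mul_assoc]
        _ = _ := by simp only [mul_assoc]
    · rw [hb', conj_mul', C.conj_s, ← hc, e]
      calc u * b * s * s = u * (b * s) * s := by simp only [mul_assoc]
        _ = u * (s * b) * s := by rw [C.s_comm b bQ]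
        _ = _ := by simp only [mul_assoc]
  · subst hb; subst hc
    refine Or.inl ⟨hu, bQ, hsq, hbb, hanti, ?_⟩
    rw [e, mul_assoc, C.s_sq, mul_one]

theorem exists_commuting_root {a : G} (A : Quad s Q x a) :
    ∃ d, Quad s Q x d ∧ d * a = a * d ∧ d * (x * a * x⁻¹) = x * a * x⁻¹ * d ∧
      x * d * x⁻¹ * a = a * (x * d * x⁻¹) ∧
      x * d * x⁻¹ * (x * a * x⁻¹) = x * a * x⁻¹ * (x * d * x⁻¹) := by
  set b := x * a * x⁻¹ with hb
  have bQ : b ∈ Q := A.mem'
  have anti : b * a = a * b * s := A.anti
  have step : x * b * x⁻¹ = a * b := A.step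
  clear_value b
  have aQ := A.mem
  have hab : a * b = b * a * s := by
    rw [anti]; simp only [mul_assoc, C.s_sq, mul_one]
  have sa' : s * a = a * s := C.s_comm a aQ
  have sb' : s * b = b * s := C.s_comm b bQ
  have l1 : ∀ t, s * (s * t) = t := fun t => by rw [← mul_assoc, C.s_sq, one_mul]
  have l2 : ∀ t, s * (a * t) = a * (s * t) := fun t => by rw [← mul_assoc, sa', mul_assoc]
  have l3 : ∀ t, s * (b * t) = b * (s * t) := fun t => by rw [← mul_assoc, sb', mul_assoc]
  have l6 : ∀ t, b * (a * t) = a * (b * (s * t)) := fun t => by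
    rw [← mul_assoc, anti, mul_assoc, mul_assoc]
  -- some multiple of any element centralises the pair
  have shift : ∀ w ∈ Q, ∃ t ∈ ({1, a, b, a * b} : Set G), t ∈ Q ∧
      w * t * a = a * (w * t) ∧ w * t * b = b * (w * t) := by
    intro w hw
    rcases C.comm w hw a aQ with ha | ha <;> rcases C.comm w hw b bQ with hb' | hb'
    all_goals
      have m1 : ∀ t, w * (a * t) = w * a * t := fun t => (mul_assoc w a t).symm
      have m2 : ∀ t, w * (b * t) = w * b * t := fun t => (mul_assoc w b t).symm
      have sw' : s * w = w * s := C.s_comm w hw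
      have lw : ∀ t, s * (w * t) = w * (s * t) := fun t => by rw [← mul_assoc, sw', mul_assoc]
    · exact ⟨1, by simp, one_mem _, by simpa using ha, by simpa using hb'⟩
    · refine ⟨a, by simp, aQ, by rw [ha, mul_assoc, ha], ?_⟩
      simp only [mul_assoc, m1, m2, ha, hb', anti, sa', sb', sw', lw, C.s_sq, mul_one, l1, l2, l3, l6]
    · refine ⟨b, by simp, bQ, ?_, by rw [hb', mul_assoc, hb']⟩
      simp only [mul_assoc, m1, m2, ha, hb', anti, sa', sb', sw', lw, C.s_sq, mul_one, l1, l2, l3, l6]
    · refine ⟨a * b, by simp, Q.mul_mem aQ bQ, ?_, ?_⟩ <;>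
        simp only [mul_assoc, m1, m2, ha, hb', anti, sa', sb', sw', lw, C.s_sq, mul_one, l1, l2, l3, l6]
  obtain ⟨u, huQ, hua, hub, husq⟩ : ∃ u ∈ Q, u * a = a * u ∧ u * b = b * u ∧ u * u = s := by
    by_contra hc
    push Not at hc
    have h2 : ∀ v ∈ Q, v * a = a * v → v * b = b * v → v * v = 1 := fun v hv h1 h2 =>
      (C.sq_cases hv).resolve_right (hc v hv h1 h2)
    have hC : ∀ v ∈ Q, v * a = a * v → v * b = b * v → v = 1 ∨ v = s := by
      intro v hv va vb
      refine C.center v hv fun w hw => ?_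
      obtain ⟨t, ht, htQ, wa, wb⟩ := shift w hw
      have vt : Commute v t := by
        rcases ht with rfl | rfl | rfl | rfl
        · exact Commute.one_right v
        · exact va
        · exact vb
        · exact Commute.mul_right va vb
      set w0 := w * t with hw0
      have w0Q : w0 ∈ Q := Q.mul_mem hw htQ
      have hcomm : Commute v w0 := by
        have h1 := h2 v hv va vb
        have h3 := h2 w0 w0Q wa wb
        show v * w0 = w0 * v
        calc v * w0 = (w0 * w0) * (v * w0) * (v * v) := by rw [h1, h3]; group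
          _ = w0 * ((w0 * v) * (w0 * v)) * v := by simp only [mul_assoc]
          _ = w0 * v := by
            rw [h2 (w0 * v) (Q.mul_mem w0Q hv) ((Commute.mul_left wa va).eq)
              ((Commute.mul_left wb vb).eq), mul_one]
      have := hcomm.mul_right vt.inv_right
      rwa [hw0, mul_inv_cancel_right] at this
    classical
    let S : Finset G := ({1, s} : Finset G).biUnion fun z =>
      ({1, a, b, a * b} : Finset G).image fun t => z * t⁻¹
    have hsub : (Q : Set G) ⊆ S := by
      intro w hw
      obtain ⟨t, ht, htQ, wa, wb⟩ := shift w hw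
      have hz := hC (w * t) (Q.mul_mem hw htQ) wa wb
      simp only [S, Finset.coe_biUnion, Finset.coe_image, Set.mem_iUnion, Set.mem_image,
        Finset.coe_insert, Finset.coe_singleton]
      exact ⟨w * t, hz.imp id id, t, ht, by rw [mul_inv_cancel_right]⟩
    have h8 : S.card ≤ 8 := by
      refine Finset.card_biUnion_le.trans ((Finset.sum_le_card_nsmul _ _ 4 fun z _ =>
        Finset.card_image_le.trans Finset.card_le_four).trans ?_)
      have : ({1, s} : Finset G).card ≤ 2 := Finset.card_le_two
      simp only [smul_eq_mul]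
      omega
    have := Set.ncard_le_ncard hsub (Finset.finite_toSet S)
    rw [Set.ncard_coe_finset, ← Nat.card_coe_set_eq] at this
    have h4 : Nat.card (Q : Set G) = 32 := C.card
    omega
  have key : ∀ d, d = u ∨ d = u * s → Quad s Q x d → Quad s Q x d ∧ d * a = a * d ∧
      d * b = b * d ∧ x * d * x⁻¹ * a = a * (x * d * x⁻¹) ∧
      x * d * x⁻¹ * b = b * (x * d * x⁻¹) := by
    intro d hd hD
    have da : Commute d a := by
      rcases hd with rfl | rfl
      · exact hua
      · exact C.comm_s_mul huQ aQ hua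
    have db : Commute d b := by
      rcases hd with rfl | rfl
      · exact hub
      · exact C.comm_s_mul huQ bQ hub
    have hm : ∀ {t}, Commute d t → Commute (x * d * x⁻¹) (x * t * x⁻¹) := fun h => by
      show _ * _ = _ * _
      rw [← conj_mul', ← conj_mul', h.eq]
    have e1 : Commute (x * d * x⁻¹) b := by rw [hb]; exact hm da
    have e2 : Commute (x * d * x⁻¹) (a * b) := by
      have := hm db
      rwa [step] at this
    have e3 : Commute (x * d * x⁻¹) a := by
      have := e2.mul_right e1.inv_right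
      rwa [mul_inv_cancel_right] at this
    exact ⟨hD, da, db, e3, e1⟩
  rcases C.exists_quad huQ husq with h | h
  · exact ⟨u, key u (Or.inl rfl) h⟩
  · exact ⟨u * s, key _ (Or.inr rfl) h⟩

end Core

end Cfsg.Agent.H80.Types
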