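import Cfsg.Agent.H80.Types.Quads
import Cfsg.Agent.H80.Alt.Core
import Cfsg.Prelude.Def_Transfer
import Cfsg.Prelude.Def_CaseTheorems

/-! The elements of order three and two of the centralizer. -/

set_option autoImplicit false

namespace Cfsg.Agent.H80.Types

/-- An involution centralizer decomposed along the core. -/
structure Setup {G : Type*} [Group G] (s : G) (Q : Subgroup G) (x g : G) : Prop where
  core : Core s Q x
  s_g : s * g = g * s
  g_sq : g * g = 1 ∨ g * g = s
  g_x : g * x * g⁻¹ = x⁻¹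
  g_norm : ∀ u ∈ Q, g * u * g⁻¹ ∈ Q
  dec : ∀ l : G, l * s = s * l → ∃ q ∈ Q, ∃ n p : ℕ, n < 3 ∧ p < 2 ∧ l = q * x ^ n * g ^ p
  indep : ∀ n p : ℕ, n < 3 → p < 2 → x ^ n * g ^ p ∈ Q → n = 0 ∧ p = 0

theorem sym3_facts :
    (∀ σ τ : Equiv.Perm (Fin 3), σ ≠ 1 → σ * σ * σ = 1 → Equiv.Perm.sign τ = -1 →
      τ * σ * τ⁻¹ = σ⁻¹ ∧ τ * τ = 1 ∧
      (∀ ρ : Equiv.Perm (Fin 3), ∃ n : Fin 3, ∃ p : Fin 2, σ ^ n.val * τ ^ p.val = ρ) ∧
      ∀ n : Fin 3, ∀ p : Fin 2, σ ^ n.val * τ ^ p.val = 1 → n.val = 0 ∧ p.val = 0) := by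
  decide +kernel

theorem exists_setup {G : Type*} [Group G] [Finite G] (s : G) (hs : orderOf s = 2)
    (L : Subgroup G) (hL : L = Subgroup.centralizer ({s} : Set G))
    (Q : Subgroup G) (hQ : Q = (Cfsg.pCore 2 L).map L.subtype)
    (hQex : Cfsg.IsExtraspecial 2 Q) (hQcard : Nat.card Q = 32)
    (e : L ⧸ Cfsg.pCore 2 L ≃* Equiv.Perm (Fin 3))
    (X : Sylow 3 L)
    (hCQX : Q ⊓ Subgroup.centralizer (((X : Subgroup L).map L.subtype : Subgroup G) : Set G) =
      Subgroup.zpowers s) :
    ∃ x g : G, Setup s Q x g := by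
  classical
  haveI := Fact.mk Nat.prime_three
  obtain ⟨⟨-, -, hcomm⟩, hcen2⟩ := hQex
  have hQL : Q ≤ L := Alt.core_le hQ
  have sL : ∀ {l : G}, l ∈ L → l * s = s * l := fun {l} h => by
    rw [hL, Subgroup.mem_centralizer_singleton_iff] at h
    first
      | exact h
      | exact h.symm
  have sQ : s ∈ Q := by
    have : s ∈ Q ⊓ Subgroup.centralizer (((X : Subgroup L).map L.subtype : Subgroup G) : Set G) :=
      hCQX ▸ Subgroup.mem_zpowers s
    exact this.1
  have s1 : s ≠ 1 := fun h => by rw [h, orderOf_one] at hs; omega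
  have s2 : s * s = 1 := by
    have := pow_orderOf_eq_one s
    rwa [hs, pow_two] at this
  have scQ : ∀ u ∈ Q, s * u = u * s := fun u hu => (sL (hQL hu)).symm
  have center : ∀ c : Q, c ∈ Subgroup.center Q → c = 1 ∨ c = ⟨s, sQ⟩ := by
    intro c hc
    have hsc : (⟨s, sQ⟩ : Q) ∈ Subgroup.center Q :=
      Subgroup.mem_center_iff.mpr fun u => Subtype.ext (scQ u u.2).symm
    by_contra hne
    push Not at hne
    have h3 : ({1, ⟨s, sQ⟩, c} : Finset Q).card = 3 := Finset.card_eq_three.mpr
      ⟨1, ⟨s, sQ⟩, c, fun h => s1 (congrArg Subtype.val h).symm, fun h => hne.1 h.symm,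
        fun h => hne.2 h.symm, rfl⟩
    have hsub : (({1, ⟨s, sQ⟩, c} : Finset Q) : Set Q) ⊆ (Subgroup.center Q : Set Q) := by
      intro z hz
      simp only [Finset.coe_insert, Finset.coe_singleton, Set.mem_insert_iff,
        Set.mem_singleton_iff] at hz
      rcases hz with rfl | rfl | rfl
      · exact one_mem _
      · exact hsc
      · exact hc
    have := Set.ncard_le_ncard hsub
    rw [Set.ncard_coe_finset, h3, ← Nat.card_coe_set_eq] at this
    have h2 : Nat.card (Subgroup.center Q : Set Q) = 2 := hcen2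
    omega
  -- the quotient
  let ψ : L →* Equiv.Perm (Fin 3) := e.toMonoidHom.comp (QuotientGroup.mk' (Cfsg.pCore 2 L))
  have hψs : Function.Surjective ψ := e.surjective.comp (QuotientGroup.mk'_surjective _)
  have hψ : ∀ l : L, ψ l = 1 ↔ (l : G) ∈ Q := fun l => by
    show e (QuotientGroup.mk l) = 1 ↔ _
    rw [e.map_eq_one_iff, QuotientGroup.eq_one_iff, hQ]
    exact ⟨fun h => ⟨l, h, rfl⟩, fun ⟨l', h', he⟩ => by rwa [← Subtype.ext he]⟩
  have hcardL : Nat.card L = 192 := by
    have h1 := Subgroup.card_eq_card_quotient_mul_card_subgroup (Cfsg.pCore 2 L)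
    rw [Nat.card_congr e.toEquiv, Nat.card_perm, Nat.card_fin] at h1
    have h2 : Nat.card (Cfsg.pCore 2 L) = 32 := by
      rw [← hQcard, hQ]
      exact Nat.card_congr (Subgroup.equivMapOfInjective _ _ L.subtype_injective).toEquiv
    rw [h2] at h1
    simpa [Nat.factorial] using h1
  -- the element of order three
  have hX : Nat.card (X : Subgroup L) = 3 := by
    rw [X.card_eq_multiplicity, hcardL, show 192 = 3 * 64 by norm_num,
      Nat.factorization_mul (by norm_num) (by norm_num), Finsupp.add_apply,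
      Nat.Prime.factorization_self Nat.prime_three,
      Nat.factorization_eq_zero_of_not_dvd (by norm_num), Nat.add_zero, pow_one]
  obtain ⟨x', hx', hx'1⟩ := (Subgroup.bot_or_exists_ne_one (X : Subgroup L)).resolve_left
    (fun h => by rw [h, Subgroup.card_bot] at hX; omega)
  have hx'3 : x' * x' * x' = 1 := by
    have h : (⟨x', hx'⟩ : (X : Subgroup L)) ^ Nat.card (X : Subgroup L) = 1 := pow_card_eq_one'
    rw [hX] at h
    have := congrArg Subtype.val h
    simpa [pow_succ] using this
  have hzX : ∀ z ∈ (X : Subgroup L), z = 1 ∨ z = x' ∨ z = x' * x' := by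
    intro z hz
    have ho : orderOf (⟨x', hx'⟩ : (X : Subgroup L)) = 3 := by
      rcases (Nat.dvd_prime Nat.prime_three).mp
        (hX ▸ orderOf_dvd_natCard (⟨x', hx'⟩ : (X : Subgroup L))) with h | h
      · exact absurd (congrArg Subtype.val (orderOf_eq_one_iff.mp h)) hx'1
      · exact h
    have htop : Subgroup.zpowers (⟨x', hx'⟩ : (X : Subgroup L)) = ⊤ :=
      Subgroup.eq_top_of_card_eq _ (by rw [Nat.card_zpowers, ho, hX])
    obtain ⟨k, hk, hke⟩ := mem_zpowers_iff_mem_range_orderOf.mp
      (htop ▸ Subgroup.mem_top (⟨z, hz⟩ : (X : Subgroup L))) |> fun h => by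
        simpa using h
    have ho' := ho
    rw [Subgroup.orderOf_mk] at ho'
    rw [ho'] at hk
    have := congrArg Subtype.val hke
    rw [Subgroup.coe_pow] at this
    interval_cases k
    · exact Or.inl (by simpa using this.symm)
    · exact Or.inr (Or.inl (by simpa using this.symm))
    · exact Or.inr (Or.inr (Subtype.ext (by simpa [pow_two] using this.symm)))
  set x := (x' : G) with hxdef
  have x3 : x * x * x = 1 := congrArg Subtype.val hx'3
  have fixed : ∀ u ∈ Q, x * u = u * x → u = 1 ∨ u = s := by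
    intro u hu h
    have hmem : u ∈ Subgroup.zpowers s := by
      rw [← hCQX]
      refine Subgroup.mem_inf.mpr ⟨hu, ?_⟩
      rw [Subgroup.mem_centralizer_iff]
      rintro _ ⟨z, hz, rfl⟩
      rcases hzX z hz with rfl | rfl | rfl
      · simp
      · exact h
      · show x * x * u = u * (x * x)
        rw [mul_assoc, h, ← mul_assoc, h, mul_assoc]
    obtain ⟨k, hk, hke⟩ := mem_zpowers_iff_mem_range_orderOf.mp hmem |> fun h => by simpa using h
    rw [hs] at hk
    interval_cases k
    · exact Or.inl (by simpa using hke.symm)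
    · exact Or.inr (by simpa using hke.symm)
  have norm : ∀ {l : G}, l ∈ L → ∀ u ∈ Q, l * u * l⁻¹ ∈ Q := fun hl u hu =>
    Alt.conj_mem_core hQ hl hu
  have core : Core s Q x :=
    { card := hQcard, s_mem := sQ, s_ne := s1, s_sq := s2, s_comm := scQ
      s_x := (sL x'.2).symm
      center := fun u hu h => by
        rcases center ⟨u, hu⟩ (Subgroup.mem_center_iff.mpr fun v =>
          Subtype.ext (h v v.2).symm) with e | e
        · exact Or.inl (congrArg Subtype.val e)
        · exact Or.inr (congrArg Subtype.val e)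
      comm := fun u hu v hv => by
        have h : (⟨u, hu⟩ : Q) * ⟨v, hv⟩ * (⟨u, hu⟩ : Q)⁻¹ * (⟨v, hv⟩ : Q)⁻¹ ∈ Subgroup.center Q := by
          rw [← hcomm, commutator_def]
          exact Subgroup.commutator_mem_commutator (Subgroup.mem_top _) (Subgroup.mem_top _)
        rcases center _ h with e | e
        · left
          have h' : u * v * u⁻¹ * v⁻¹ = 1 := by simpa using congrArg Subtype.val e
          calc u * v = (u * v * u⁻¹ * v⁻¹) * (v * u) := by group
            _ = v * u := by rw [h', one_mul]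
        · right
          have h' : u * v * u⁻¹ * v⁻¹ = s := by simpa using congrArg Subtype.val e
          calc u * v = (u * v * u⁻¹ * v⁻¹) * (v * u) := by group
            _ = v * u * s := by rw [h', scQ _ (Q.mul_mem hv hu)]
      x_cube := x3
      x_norm := norm x'.2
      fixed := fixed }
  -- an element inverting it
  have hσ1 : ψ x' ≠ 1 := fun h => by
    rcases fixed x ((hψ x').mp h) rfl with h' | h'
    · exact hx'1 (Subtype.ext h')
    · rw [h', s2, one_mul] at x3
      exact s1 x3
  have hσ3 : ψ x' * ψ x' * ψ x' = 1 := by rw [← map_mul, ← map_mul, hx'3, map_one]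
  let sg : L →* ℤˣ := Equiv.Perm.sign.comp ψ
  obtain ⟨g', hg'N, hg's⟩ : ∃ g' : L,
      g' ∈ Subgroup.normalizer ((X : Subgroup L) : Set L) ∧ Equiv.Perm.sign (ψ g') = -1 := by
    have hXK : (X : Subgroup L) ≤ sg.ker := fun z hz => by
      rw [MonoidHom.mem_ker]
      show Equiv.Perm.sign (ψ z) = 1
      have h3 : z * z * z = 1 := by
        rcases hzX z hz with rfl | rfl | rfl
        · simp
        · exact hx'3
        · calc x' * x' * (x' * x') * (x' * x') = (x' * x' * x') * (x' * x' * x') := by group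
            _ = 1 := by rw [hx'3, mul_one]
      have := congrArg (fun t => Equiv.Perm.sign (ψ t)) h3
      simp only [map_mul, map_one] at this
      rcases Int.units_eq_one_or (Equiv.Perm.sign (ψ z)) with e | e
      · exact e
      · rw [e] at this; exact absurd this (by decide)
    have hF := Sylow.normalizer_sup_eq_top (X.subtype hXK)
    have hmap : ((X.subtype hXK : Subgroup sg.ker)).map sg.ker.subtype = (X : Subgroup L) := by
      rw [Sylow.coe_subtype, Subgroup.map_subgroupOf_eq_of_le hXK]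
    rw [hmap] at hF
    by_contra hc
    push Not at hc
    have hle : Subgroup.normalizer ((X : Subgroup L) : Set L) ≤ sg.ker := fun z hz => by
      rw [MonoidHom.mem_ker]
      exact (Int.units_eq_one_or _).resolve_right (hc z hz)
    rw [sup_eq_right.mpr hle] at hF
    obtain ⟨t, ht⟩ := hψs (Equiv.swap 0 1)
    have : t ∈ sg.ker := hF ▸ Subgroup.mem_top t
    rw [MonoidHom.mem_ker] at this
    have h' : Equiv.Perm.sign (ψ t) = 1 := this
    rw [ht] at h'
    exact absurd h' (by decide)
  obtain ⟨hinv, hτ2, hall, hind⟩ := sym3_facts _ _ hσ1 hσ3 hg's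
  have hgx' : g' * x' * g'⁻¹ = x'⁻¹ := by
    have hmem : g' * x' * g'⁻¹ ∈ (X : Subgroup L) :=
      (Subgroup.mem_normalizer_iff.mp hg'N x').mp hx'
    have him : ψ (g' * x' * g'⁻¹) = (ψ x')⁻¹ := by rw [map_mul, map_mul, map_inv, hinv]
    rcases hzX _ hmem with h | h | h
    · rw [h, map_one, eq_comm, inv_eq_one] at him
      exact absurd him hσ1
    · rw [h, eq_inv_iff_mul_eq_one] at him
      rw [him, one_mul] at hσ3
      exact absurd hσ3 hσ1
    · rw [h]
      exact (inv_eq_of_mul_eq_one_left hx'3).symm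
  have gx : (g' : G) * x * (g' : G)⁻¹ = x⁻¹ := by
    have := congrArg Subtype.val hgx'
    simpa using this
  refine ⟨x, g', core, (sL g'.2).symm, ?_, gx, norm g'.2, fun l hl => ?_, fun n p hn hp h => ?_⟩
  · have hq : ((g' * g' : L) : G) ∈ Q := (hψ _).mp (by rw [map_mul, hτ2])
    refine fixed _ hq ?_
    have h2 : (g' : G) * g' * x * ((g' : G) * g')⁻¹ = x := by
      calc _ = (g' : G) * (g' * x * (g' : G)⁻¹) * (g' : G)⁻¹ := by group
        _ = (g' : G) * x⁻¹ * (g' : G)⁻¹ := by rw [gx]
        _ = ((g' : G) * x * (g' : G)⁻¹)⁻¹ := by group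
        _ = x := by rw [gx, inv_inv]
    exact (mul_inv_eq_iff_eq_mul.mp h2).symm
  · let l' : L := ⟨l, by
      rw [hL, Subgroup.mem_centralizer_singleton_iff]
      first
        | exact hl
        | exact hl.symm⟩
    obtain ⟨n, p, hnp⟩ := hall (ψ l')
    have hq : ((l' * (x' ^ n.val * g' ^ p.val)⁻¹ : L) : G) ∈ Q :=
      (hψ _).mp (by rw [map_mul, map_inv, map_mul, map_pow, map_pow, hnp, mul_inv_cancel])
    refine ⟨_, hq, n, p, n.2, p.2, ?_⟩
    show l = l * (x ^ n.val * (g' : G) ^ p.val)⁻¹ * x ^ n.val * (g' : G) ^ p.val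
    group
  · have h1 : ψ (x' ^ n * g' ^ p) = 1 := (hψ _).mpr h
    rw [map_mul, map_pow, map_pow] at h1
    exact hind ⟨n, hn⟩ ⟨p, hp⟩ h1

end Cfsg.Agent.H80.Types
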