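import Cfsg.Agent.H80.Types.Setup
import Cfsg.Agent.H80.Types.Hom

/-! Normalised generators of the centralizer. -/

set_option autoImplicit false

namespace Cfsg.Agent.H80.Types

variable {G : Type*} [Group G] {s x g : G} {Q : Subgroup G}

/-- two commuting quaternion pairs -/
structure Pairs (s : G) (Q : Subgroup G) (a b d e : G) : Prop where
  a_mem : a ∈ Q
  b_mem : b ∈ Q
  d_mem : d ∈ Q
  e_mem : e ∈ Q
  a_sq : a * a = s
  b_sq : b * b = s
  b_a : b * a = a * b * s
  d_sq : d * d = s
  e_sq : e * e = s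
  e_d : e * d = d * e * s
  d_a : d * a = a * d
  e_a : e * a = a * e
  d_b : d * b = b * d
  e_b : e * b = b * e

theorem unit_pattern {a b : G} (hs : s * s = 1) (sa : s * a = a * s) (sb : s * b = b * s)
    (aa : a * a = s) (ba : b * a = a * b * s) {i : Nat} (hi : i < 4) :
    unit a b i * a = a * unit a b i * s ^ (i / 2) ∧
      unit a b i * b = b * unit a b i * s ^ (i % 2) := by
  have l1 : ∀ t, s * (s * t) = t := fun t => by rw [← mul_assoc, hs, one_mul]
  have l2 : ∀ t, s * (a * t) = a * (s * t) := fun t => by rw [← mul_assoc, sa, mul_assoc]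
  have l3 : ∀ t, s * (b * t) = b * (s * t) := fun t => by rw [← mul_assoc, sb, mul_assoc]
  have l4 : ∀ t, a * (a * t) = s * t := fun t => by rw [← mul_assoc, aa]
  have l6 : ∀ t, b * (a * t) = a * (b * (s * t)) := fun t => by
    rw [← mul_assoc, ba, mul_assoc, mul_assoc]
  interval_cases i <;> refine ⟨?_, ?_⟩ <;>
    simp [unit, mul_assoc, hs, aa, sa, sb, ba, l1, l2, l3, l4, l6]

theorem unit_commute {a b t : G} (ha : Commute a t) (hb : Commute b t) (i : Nat) :
    Commute (unit a b i) t := by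
  match i with
  | 0 => exact Commute.one_left t
  | 1 => exact ha
  | 2 => exact hb
  | _ + 3 => exact ha.mul_left hb

theorem mem_unit {a b : G} (ha : a ∈ Q) (hb : b ∈ Q) (i : Nat) : unit a b i ∈ Q := by
  match i with
  | 0 => exact one_mem Q
  | 1 => exact ha
  | 2 => exact hb
  | _ + 3 => exact Q.mul_mem ha hb

theorem pow_inj (hs : s * s = 1) (h1 : s ≠ 1) {m n : Nat} (h : s ^ m = s ^ n) :
    m % 2 = n % 2 := by
  rw [pow_mod_two hs m, pow_mod_two hs n] at h
  rcases Nat.mod_two_eq_zero_or_one m with e | e <;>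
    rcases Nat.mod_two_eq_zero_or_one n with e' | e' <;> rw [e, e'] at h ⊢
  · rw [pow_zero, pow_one] at h; exact absurd h.symm h1
  · rw [pow_zero, pow_one] at h; exact absurd h h1

namespace Pairs

variable {a b d e : G}

theorem valQ_mem (P : Pairs s Q a b d e) (C : Core s Q x) (q : Nat) : valQ s a b d e q ∈ Q :=
  Q.mul_mem (Q.mul_mem (mem_unit P.a_mem P.b_mem _) (mem_unit P.d_mem P.e_mem _))
    (Q.pow_mem C.s_mem _)

theorem valQ_inj (P : Pairs s Q a b d e) (C : Core s Q x) {q r : Nat} (hq : q < 32) (hr : r < 32)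
    (h : valQ s a b d e q = valQ s a b d e r) : q = r := by
  have sc : ∀ {t}, t ∈ Q → Commute s t := fun ht => C.s_comm _ ht
  have pat : ∀ {i j σ : Nat}, i < 4 → j < 4 →
      (unit a b i * unit d e j * s ^ σ * a = a * (unit a b i * unit d e j * s ^ σ) * s ^ (i / 2) ∧
        unit a b i * unit d e j * s ^ σ * b = b * (unit a b i * unit d e j * s ^ σ) * s ^ (i % 2)) ∧
      (unit a b i * unit d e j * s ^ σ * d = d * (unit a b i * unit d e j * s ^ σ) * s ^ (j / 2) ∧
        unit a b i * unit d e j * s ^ σ * e = e * (unit a b i * unit d e j * s ^ σ) * s ^ (j % 2)) := by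
    intro i j σ hi hj
    obtain ⟨pa, pb⟩ := unit_pattern C.s_sq (C.s_comm a P.a_mem) (C.s_comm b P.b_mem) P.a_sq P.b_a hi
    obtain ⟨pd, pe⟩ := unit_pattern C.s_sq (C.s_comm d P.d_mem) (C.s_comm e P.e_mem) P.d_sq P.e_d hj
    have key : ∀ {u v t : G} {k : ℕ}, t ∈ Q → Commute v t → v ∈ Q → u * t = t * u * s ^ k →
        u * v * s ^ σ * t = t * (u * v * s ^ σ) * s ^ k := by
      intro u v t k htQ hvt hvQ hut
      calc u * v * s ^ σ * t = u * v * t * s ^ σ := by
            rw [mul_assoc (u * v), ((sc htQ).pow_left σ).eq, ← mul_assoc]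
        _ = u * t * v * s ^ σ := by rw [mul_assoc u v t, hvt.eq, ← mul_assoc]
        _ = t * u * (s ^ k * v) * s ^ σ := by rw [hut]; simp only [mul_assoc]
        _ = t * u * v * (s ^ k * s ^ σ) := by
            rw [((sc hvQ).pow_left k).eq]; simp only [mul_assoc]
        _ = _ := by rw [← pow_add, add_comm, pow_add]; simp only [mul_assoc]
    have key' : ∀ {u v t : G} {k : ℕ}, t ∈ Q → Commute u t → v * t = t * v * s ^ k →
        u * v * s ^ σ * t = t * (u * v * s ^ σ) * s ^ k := by
      intro u v t k htQ hut hvt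
      calc u * v * s ^ σ * t = u * (v * t) * s ^ σ := by
            rw [mul_assoc (u * v), ((sc htQ).pow_left σ).eq]; simp only [mul_assoc]
        _ = u * t * v * (s ^ k * s ^ σ) := by rw [hvt]; simp only [mul_assoc]
        _ = t * u * v * (s ^ k * s ^ σ) := by rw [hut.eq]
        _ = _ := by rw [← pow_add, add_comm, pow_add]; simp only [mul_assoc]
    have hj' := mem_unit P.d_mem P.e_mem j
    exact ⟨⟨key P.a_mem (unit_commute P.d_a P.e_a j) hj' pa,
        key P.b_mem (unit_commute P.d_b P.e_b j) hj' pb⟩,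
      ⟨key' P.d_mem (unit_commute (Commute.symm P.d_a) (Commute.symm P.d_b) i) pd,
        key' P.e_mem (unit_commute (Commute.symm P.e_a) (Commute.symm P.e_b) i) pe⟩⟩
  obtain ⟨⟨a1, b1⟩, d1, e1⟩ := pat (σ := q / 16) (Nat.mod_lt q (by norm_num : 4 > 0))
    (Nat.mod_lt (q / 4) (by norm_num : 4 > 0))
  obtain ⟨⟨a2, b2⟩, d2, e2⟩ := pat (σ := r / 16) (Nat.mod_lt r (by norm_num : 4 > 0))
    (Nat.mod_lt (r / 4) (by norm_num : 4 > 0))
  simp only [valQ] at h
  rw [h] at a1 b1 d1 e1
  have ha := pow_inj C.s_sq C.s_ne (mul_left_cancel (a1.symm.trans a2))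
  have hb := pow_inj C.s_sq C.s_ne (mul_left_cancel (b1.symm.trans b2))
  have hd := pow_inj C.s_sq C.s_ne (mul_left_cancel (d1.symm.trans d2))
  have he := pow_inj C.s_sq C.s_ne (mul_left_cancel (e1.symm.trans e2))
  have hi : q % 4 = r % 4 := by omega
  have hj : q / 4 % 4 = r / 4 % 4 := by omega
  rw [hi, hj] at h
  have hσ := pow_inj C.s_sq C.s_ne (mul_left_cancel h)
  omega

theorem valQ_surj (P : Pairs s Q a b d e) (C : Core s Q x) {u : G} (hu : u ∈ Q) :
    ∃ q, q < 32 ∧ valQ s a b d e q = u := by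
  haveI : Finite Q := Nat.finite_of_card_ne_zero (by rw [C.card]; norm_num)
  let f : Fin 32 → Q := fun q => ⟨valQ s a b d e q, P.valQ_mem C q⟩
  have hf : Function.Injective f := fun q r h =>
    Fin.ext (P.valQ_inj C q.2 r.2 (congrArg Subtype.val h))
  obtain ⟨q, hq⟩ := ((Nat.bijective_iff_injective_and_card f).mpr
    ⟨hf, by rw [Nat.card_fin, C.card]⟩).2 ⟨u, hu⟩
  exact ⟨q, q.2, congrArg Subtype.val hq⟩

theorem sq_eq (P : Pairs s Q a b d e) (C : Core s Q x) {u : G} (hu : u ∈ Q) (h2 : u * u = s) :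
    ∃ k σ, 1 ≤ k ∧ k < 4 ∧ (u = unit a b k * s ^ σ ∨ u = unit d e k * s ^ σ) := by
  obtain ⟨q, hq, rfl⟩ := P.valQ_surj C hu
  set i := q % 4 with hi
  set j := q / 4 % 4 with hj
  have hi4 : i < 4 := Nat.mod_lt _ (by norm_num)
  have hj4 : j < 4 := Nat.mod_lt _ (by norm_num)
  have sA := mem_unit P.a_mem P.b_mem i
  have sB := mem_unit P.d_mem P.e_mem j
  have hc : Commute (unit a b i) (unit d e j) :=
    unit_commute ((unit_commute (P.d_a : Commute d a) P.e_a j).symm)
      ((unit_commute (P.d_b : Commute d b) P.e_b j).symm) i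
  have hAA : unit a b i * unit a b i = s ^ nz i := by
    rw [unit_mul C.s_sq (C.s_comm a P.a_mem) (C.s_comm b P.b_mem) P.a_sq P.b_sq P.b_a hi4 hi4,
      show Nat.xor i i = 0 from Nat.xor_self i, (coc_eq i hi4 i hi4).1, (perm_eq i hi4).2.2.2.2]
    interval_cases i <;> simp [unit]
  have hBB : unit d e j * unit d e j = s ^ nz j := by
    rw [unit_mul C.s_sq (C.s_comm d P.d_mem) (C.s_comm e P.e_mem) P.d_sq P.e_sq P.e_d hj4 hj4,
      show Nat.xor j j = 0 from Nat.xor_self j, (coc_eq j hj4 j hj4).1, (perm_eq j hj4).2.2.2.2]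
    interval_cases j <;> simp [unit]
  have hval : valQ s a b d e q * valQ s a b d e q = s ^ (nz i + nz j) := by
    have hsσ : s ^ (q / 16) * s ^ (q / 16) = 1 := by
      rw [← (Commute.refl s).mul_pow, C.s_sq, one_pow]
    have cS : Commute (s ^ (q / 16)) (unit a b i * unit d e j) :=
      (show Commute s _ from C.s_comm _ (Q.mul_mem sA sB)).pow_left _
    show unit a b i * unit d e j * s ^ (q / 16) * (unit a b i * unit d e j * s ^ (q / 16)) = _
    calc _ = unit a b i * unit d e j * (s ^ (q / 16) * (unit a b i * unit d e j)) *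
          s ^ (q / 16) := by simp only [mul_assoc]
      _ = (unit a b i * unit d e j) * (unit a b i * unit d e j) *
          (s ^ (q / 16) * s ^ (q / 16)) := by rw [cS.eq]; simp only [mul_assoc]
      _ = unit a b i * (unit d e j * unit a b i) * unit d e j := by
          rw [hsσ, mul_one]; simp only [mul_assoc]
      _ = (unit a b i * unit a b i) * (unit d e j * unit d e j) := by
          rw [← hc.eq]; simp only [mul_assoc]
      _ = _ := by rw [hAA, hBB, pow_add]
  rw [hval] at h2
  have hpar := pow_inj C.s_sq C.s_ne (h2.trans (pow_one s).symm)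
  rw [(perm_eq i hi4).2.2.2.2, (perm_eq j hj4).2.2.2.2] at hpar
  rcases Nat.eq_zero_or_pos i with h0 | h0
  · refine ⟨j, q / 16, Nat.pos_of_ne_zero (fun e0 => by rw [h0, e0] at hpar; simp at hpar), hj4,
      Or.inr ?_⟩
    show unit a b i * unit d e j * _ = _
    rw [h0]
    simp [unit]
  · refine ⟨i, q / 16, h0, hi4, Or.inl ?_⟩
    have hj0 : j = 0 := by
      by_contra hne
      interval_cases i <;> interval_cases j <;> simp at hpar hne
    show unit a b i * unit d e j * _ = _
    rw [hj0]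
    simp [unit]

end Pairs

theorem Quad.next (C : Core s Q x) {a : G} (A : Quad s Q x a) : Quad s Q x (x * a * x⁻¹) := by
  have hmem := Q.mul_mem A.mem A.mem'
  set b := x * a * x⁻¹ with hb
  have hstep : x * b * x⁻¹ = a * b := A.step
  have hsq : b * b = s := A.sq'
  have anti : b * a = a * b * s := A.anti
  have hxab : x * (a * b) * x⁻¹ = a := by
    rw [conj_mul', ← hb, hstep, ← mul_assoc, anti, mul_assoc, C.s_comm b A.mem', ← mul_assoc,
      mul_assoc a, hsq, mul_assoc, C.s_sq, mul_one]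
  have habsq : a * b * (a * b) = s := by
    calc a * b * (a * b) = a * (b * a) * b := by simp only [mul_assoc]
      _ = a * a * b * (s * b) := by rw [anti]; simp only [mul_assoc]
      _ = a * a * (b * b) * s := by rw [C.s_comm b A.mem']; simp only [mul_assoc]
      _ = s := by rw [A.sq, hsq, C.s_sq, one_mul]
  have hbab : b * (a * b) = a := by
    rw [← mul_assoc, anti, mul_assoc, C.s_comm b A.mem', ← mul_assoc, mul_assoc a, hsq, mul_assoc,
      C.s_sq, mul_one]
  refine ⟨A.mem', by rw [hstep]; exact hmem, hsq, by rw [hstep]; exact habsq, ?_, ?_⟩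
  · rw [hstep, hbab, mul_assoc, hsq]
  · rw [hstep, hxab, hbab]

theorem conj_inv_x (S : Setup s Q x g) (v : G) :
    g * (x * v * x⁻¹) * g⁻¹ = x⁻¹ * (g * v * g⁻¹) * x ∧
      g * (x⁻¹ * v * x) * g⁻¹ = x * (g * v * g⁻¹) * x⁻¹ := by
  have h1 : g * x = x⁻¹ * g := mul_inv_eq_iff_eq_mul.mp S.g_x
  have h2 : g * x⁻¹ = x * g := by
    calc g * x⁻¹ = (g * x * g⁻¹)⁻¹ * g := by group
      _ = _ := by rw [S.g_x, inv_inv]
  constructor
  · calc _ = g * x * v * (g * x)⁻¹ := by group
      _ = _ := by rw [h1]; group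
  · calc _ = g * x⁻¹ * v * (g * x⁻¹)⁻¹ := by group
      _ = _ := by rw [h2]; group

theorem Quad.inv_conj {a : G} (A : Quad s Q x a) :
    x⁻¹ * (x * a * x⁻¹) * x = a ∧ x⁻¹ * (a * (x * a * x⁻¹)) * x = x * a * x⁻¹ := by
  refine ⟨by group, ?_⟩
  rw [← A.step]
  group

theorem Quad.inv_conj_self (C : Core s Q x) {a : G} (A : Quad s Q x a) :
    x⁻¹ * a * x = a * (x * a * x⁻¹) := by
  have := (A.next C).next C
  rw [A.step] at this
  have h2 := this.step
  have hxab : x * (a * (x * a * x⁻¹)) * x⁻¹ = a := by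
    have h := (A.next C).step
    rw [A.step] at h
    rw [h, ← mul_assoc, A.anti, mul_assoc, C.s_comm _ A.mem', ← mul_assoc, mul_assoc a, A.sq',
      mul_assoc, C.s_sq, mul_one]
  calc x⁻¹ * a * x = x⁻¹ * (x * (a * (x * a * x⁻¹)) * x⁻¹) * x := by rw [hxab]
    _ = _ := by group

theorem adjust (S : Setup s Q x g) {a : G} (A : Quad s Q x a) {k σ : Nat} (hk1 : 1 ≤ k)
    (hk4 : k < 4) (h : g * a * g⁻¹ = unit a (x * a * x⁻¹) k * s ^ σ) :
    ∃ a', Quad s Q x a' ∧ (∃ m, a' = unit a (x * a * x⁻¹) m) ∧ g * a' * g⁻¹ = a' * s ∧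
      g * (x * a' * x⁻¹) * g⁻¹ = a' * (x * a' * x⁻¹) * s := by
  have C := S.core
  have cs : ∀ t : G, x * (t * s ^ σ) * x⁻¹ = x * t * x⁻¹ * s ^ σ := fun t => by
    rw [conj_mul', ← conj_pow, C.conj_s]
  have cs' : ∀ t : G, x⁻¹ * (t * s ^ σ) * x = x⁻¹ * t * x * s ^ σ := fun t => by
    have e : Commute (s ^ σ) x := Commute.pow_left C.s_x σ
    rw [← mul_assoc, mul_assoc _ (s ^ σ) x, e.eq, ← mul_assoc]
  set b := x * a * x⁻¹ with hb
  obtain ⟨m, a', A', ha', hg'⟩ : ∃ m a', Quad s Q x a' ∧ a' = unit a b m ∧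
      g * a' * g⁻¹ = a' * s ^ σ := by
    interval_cases k
    · exact ⟨1, a, A, rfl, h⟩
    · refine ⟨3, a * b, ?_, rfl, ?_⟩
      · have := (A.next C).next C
        rwa [A.step] at this
      · rw [← A.inv_conj_self C, (conj_inv_x S a).2, h, cs, A.inv_conj_self C]
        exact congrArg (· * s ^ σ) A.step
    · refine ⟨2, b, A.next C, rfl, ?_⟩
      rw [hb, (conj_inv_x S a).1, h]
      show x⁻¹ * (a * b * s ^ σ) * x = _
      rw [cs', hb, A.inv_conj.2]
  have hgb : g * (x * a' * x⁻¹) * g⁻¹ = a' * (x * a' * x⁻¹) * s ^ σ := by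
    rw [(conj_inv_x S a').1, hg', cs', A'.inv_conj_self C]
  have hgc : g * (a' * (x * a' * x⁻¹)) * g⁻¹ = x * a' * x⁻¹ * s ^ σ := by
    rw [← A'.inv_conj_self C, (conj_inv_x S a').2, hg', cs]
  have hσ : s ^ σ = s := by
    rcases Nat.mod_two_eq_zero_or_one σ with e | e <;> rw [pow_mod_two C.s_sq, e]
    · exfalso
      rw [pow_mod_two C.s_sq, e, pow_zero, mul_one] at hg' hgb hgc
      rw [conj_mul', hg', hgb, ← mul_assoc, A'.sq, C.s_comm _ A'.mem'] at hgc
      exact C.s_ne (mul_left_cancel (a := x * a' * x⁻¹) (hgc.trans (mul_one _).symm))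
    · exact pow_one s
  rw [hσ] at hg' hgb
  exact ⟨a', A', ⟨m, ha'⟩, hg', hgb⟩

theorem Setup.conj_twice (S : Setup s Q x g) {v : G} (hv : v ∈ Q) :
    g * (g * v * g⁻¹) * g⁻¹ = v := by
  rw [show g * (g * v * g⁻¹) * g⁻¹ = g * g * v * (g * g)⁻¹ by group]
  rcases S.g_sq with h | h <;> rw [h]
  · group
  · rw [S.core.s_comm v hv, mul_inv_cancel_right]

/-- The centralizer has normalised generators. -/
theorem exists_gens (S : Setup s Q x g) : ∃ (sw : Bool) (eps : Nat) (a b d e : G),
    eps ≤ 1 ∧ Gens sw eps s a b d e x g ∧ Pairs s Q a b d e := by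
  have C := S.core
  obtain ⟨eps, heps, hg2⟩ : ∃ eps, eps ≤ 1 ∧ g * g = s ^ eps := by
    rcases S.g_sq with h | h
    · exact ⟨0, by omega, by rw [h, pow_zero]⟩
    · exact ⟨1, le_rfl, by rw [h, pow_one]⟩
  obtain ⟨u, huQ, hu2⟩ := C.exists_root
  obtain ⟨a, A⟩ : ∃ a, Quad s Q x a := by
    rcases C.exists_quad huQ hu2 with h | h <;> exact ⟨_, h⟩
  obtain ⟨d, D, hda, hdb, hea, heb⟩ := C.exists_commuting_root A
  have P : Pairs s Q a (x * a * x⁻¹) d (x * d * x⁻¹) :=
    ⟨A.mem, A.mem', D.mem, D.mem', A.sq, A.sq', A.anti, D.sq, D.sq', D.anti, hda, hea, hdb, heb⟩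
  have gs : ∀ {v w : G}, g * v * g⁻¹ = w → g * (v * s) * g⁻¹ = w * s := fun {v w} h => by
    rw [conj_mul', h, ← S.s_g, mul_inv_cancel_right]
  have hga2 : g * a * g⁻¹ * (g * a * g⁻¹) = s := by
    rw [← conj_mul', A.sq, ← S.s_g, mul_inv_cancel_right]
  obtain ⟨k, σ, hk1, hk4, hu | hu⟩ := P.sq_eq C (S.g_norm a A.mem) hga2
  · -- both factors normalised
    obtain ⟨a', A', ⟨m, hm⟩, hga, hgb⟩ := adjust S A hk1 hk4 hu
    have cd : Commute d a' := hm ▸ (unit_commute (Commute.symm hda) (Commute.symm hdb) m).symm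
    have ce : Commute (x * d * x⁻¹) a' :=
      hm ▸ (unit_commute (Commute.symm hea) (Commute.symm heb) m).symm
    have hm' : x * a' * x⁻¹ = x * unit a (x * a * x⁻¹) m * x⁻¹ := by rw [hm]
    have conjc : ∀ {u v : G}, Commute u v → Commute (x * u * x⁻¹) (x * v * x⁻¹) := fun h => by
      show _ * _ = _ * _
      rw [← conj_mul', ← conj_mul', h.eq]
    have ce' : Commute (x * d * x⁻¹) (x * a' * x⁻¹) := conjc cd
    have cd' : Commute d (x * a' * x⁻¹) := by
      have h1 := conjc ce
      rw [D.step] at h1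
      have h2 := h1.mul_left ce'.inv_left
      rwa [mul_inv_cancel_right] at h2
    have P' : Pairs s Q a' (x * a' * x⁻¹) d (x * d * x⁻¹) :=
      ⟨A'.mem, A'.mem', D.mem, D.mem', A'.sq, A'.sq', A'.anti, D.sq, D.sq', D.anti, cd, ce, cd', ce'⟩
    have hgd2 : g * d * g⁻¹ * (g * d * g⁻¹) = s := by
      rw [← conj_mul', D.sq, ← S.s_g, mul_inv_cancel_right]
    obtain ⟨k', σ', hk1', hk4', hv | hv⟩ := P'.sq_eq C (S.g_norm d D.mem) hgd2
    · exfalso
      have c1 : Commute (g * a' * g⁻¹) (x * d * x⁻¹) := by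
        rw [hga]
        exact (Commute.symm ce).mul_left (C.s_comm _ D.mem')
      have c2 : Commute (g * (x * a' * x⁻¹) * g⁻¹) (x * d * x⁻¹) := by
        rw [hgb]
        exact ((Commute.symm ce).mul_left (Commute.symm ce')).mul_left (C.s_comm _ D.mem')
      have c3 : Commute (g * unit a' (x * a' * x⁻¹) k' * g⁻¹) (x * d * x⁻¹) := by
        interval_cases k'
        · exact c1
        · exact c2
        · show Commute (g * (a' * (x * a' * x⁻¹)) * g⁻¹) _
          rw [conj_mul']
          exact c1.mul_left c2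
      have hd : Commute d (x * d * x⁻¹) := by
        have h := S.conj_twice D.mem
        rw [hv, conj_mul', ← conj_pow, ← S.s_g, mul_inv_cancel_right] at h
        have h2 := c3.mul_left ((show Commute s _ from C.s_comm _ D.mem').pow_left σ')
        rwa [h] at h2
      have := D.anti
      rw [← hd.eq] at this
      exact C.s_ne (mul_left_cancel (this.symm.trans (mul_one _).symm))
    · obtain ⟨d', D', ⟨m', hm'⟩, hgd, hge⟩ := adjust S D hk1' hk4' hv
      have fd : Commute d' a' := hm' ▸ unit_commute cd ce m'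
      have fdb : Commute d' (x * a' * x⁻¹) := hm' ▸ unit_commute cd' ce' m'
      have fe' : Commute (x * d' * x⁻¹) (x * a' * x⁻¹) := conjc fd
      have fe : Commute (x * d' * x⁻¹) a' := by
        have h1 := conjc fdb
        rw [A'.step] at h1
        have h2 := h1.mul_right fe'.inv_right
        rwa [mul_inv_cancel_right] at h2
      refine ⟨false, eps, a', _, d', _, heps, ?_,
        ⟨A'.mem, A'.mem', D'.mem, D'.mem', A'.sq, A'.sq', A'.anti, D'.sq, D'.sq', D'.anti,
          fd, fe, fdb, fe'⟩⟩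
      exact
        { s_sq := C.s_sq, s_a := C.s_comm _ A'.mem, s_b := C.s_comm _ A'.mem'
          s_d := C.s_comm _ D'.mem, s_e := C.s_comm _ D'.mem', s_x := C.s_x, s_g := S.s_g
          a_sq := A'.sq, b_sq := A'.sq', b_a := A'.anti, d_sq := D'.sq, e_sq := D'.sq'
          e_d := D'.anti, d_a := fd, e_a := fe, d_b := fdb, e_b := fe'
          x_cube := C.x_cube, x_a := rfl, x_b := A'.step
          x_d := by simp
          x_e := by simpa using D'.step
          g_sq := hg2, g_x := S.g_x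
          g_a := by simpa using hga
          g_b := by simpa using hgb
          g_d := by simpa using hgd
          g_e := by simpa using hge }
  · -- the factors exchanged
    set b := x * a * x⁻¹ with hb
    set d' := g * a * g⁻¹ with hd'
    have fd : Commute d' a := by
      rw [hu]
      exact (unit_commute hda hea k).mul_left ((show Commute s a from C.s_comm a A.mem).pow_left σ)
    have fdb : Commute d' b := by
      rw [hu]
      exact (unit_commute hdb heb k).mul_left ((show Commute s b from C.s_comm b A.mem').pow_left σ)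
    set e' := g * b * g⁻¹ with he'
    have e'eq : e' = x⁻¹ * d' * x := (conj_inv_x S a).1
    have conjc : ∀ {u v : G}, Commute u v → Commute (x⁻¹ * u * x) (x⁻¹ * v * x) := fun {u v} h => by
      show _ * _ = _ * _
      calc x⁻¹ * u * x * (x⁻¹ * v * x) = x⁻¹ * (u * v) * x := by group
        _ = x⁻¹ * (v * u) * x := by rw [h.eq]
        _ = _ := by group
    have fea : Commute e' a := by
      have h := conjc fdb
      rwa [← e'eq, hb, A.inv_conj.1] at h
    have feb : Commute e' b := by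
      have h := conjc fd
      rw [← e'eq, A.inv_conj_self C, ← hb] at h
      have h2 := fea.inv_right.mul_right h
      rwa [inv_mul_cancel_left] at h2
    have hde : g * (a * b) * g⁻¹ = d' * e' := conj_mul' g a b
    have hd2 : g * d' * g⁻¹ = a := S.conj_twice A.mem
    have he2 : g * e' * g⁻¹ = b := S.conj_twice A.mem'
    have esq : e' * e' = s := by
      rw [he', ← conj_mul', A.sq', ← S.s_g, mul_inv_cancel_right]
    have eanti : e' * d' = d' * e' * s := by
      rw [he', hd', ← conj_mul', show b * a = a * b * s from A.anti, gs rfl, conj_mul']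
    refine ⟨true, eps, a, b, d', e', heps, ?_,
      ⟨A.mem, A.mem', S.g_norm a A.mem, S.g_norm b A.mem', A.sq, A.sq', A.anti, hga2, esq, eanti,
        fd, fea, fdb, feb⟩⟩
    exact
      { s_sq := C.s_sq, s_a := C.s_comm _ A.mem, s_b := C.s_comm _ A.mem'
        s_d := C.s_comm _ (S.g_norm a A.mem), s_e := C.s_comm _ (S.g_norm b A.mem')
        s_x := C.s_x, s_g := S.s_g
        a_sq := A.sq, b_sq := A.sq', b_a := A.anti, d_sq := hga2, e_sq := esq
        e_d := eanti, d_a := fd, e_a := fea, d_b := fdb, e_b := feb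
        x_cube := C.x_cube, x_a := rfl, x_b := A.step
        x_d := by
          simp only [if_true]
          rw [← hde, ← A.inv_conj_self C, (conj_inv_x S a).2]
        x_e := by
          simp only [if_true]
          rw [e'eq]; group
        g_sq := hg2, g_x := S.g_x
        g_a := by simp [hd']
        g_b := by simp [he']
        g_d := by simpa using hd2
        g_e := by simpa using he2 }

end Cfsg.Agent.H80.Types
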